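import Mathlib
import Cfsg.Agent.Leech.FrameMaximal
import Cfsg.Agent.Classical.Orth.OrderStd
import Cfsg.Agent.Classical.Orth.Index
import Cfsg.Agent.Classical.Orth.CentreOmega
import Cfsg.Agent.Mathieu.OctadFix
import Cfsg.Prelude.Def_Classical
import Cfsg.Agent.Eq.Def_Classical

set_option autoImplicit false
set_option linter.style.haveILetI false

/-! The sublattice on the base octad modulo 2 as a hyperbolic quadratic space of dimension 8, and
the action on it of the centraliser of the sign change at that octad. -/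

namespace CfsgLib.Leech

open Cfsg
open scoped Pointwise Matrix

/-- Binary vectors of length 8. -/
abbrev OctSpace : Type := Fin 4 ⊕ Fin 4 → ZMod 2

/-- The hyperbolic form on `OctSpace`. -/
abbrev octForm : OctSpace → ZMod 2 := Cfsg.quadFormPlus 4 (ZMod 2)

/-- The points of the base octad. -/
def octPts : Fin 8 → GolayPt := ![none, some 0, some 1, some 2, some 3, some 5, some 14, some 17]

/-- A vector given by its values on the base octad. -/
def onOctad (f : Fin 8 → ℤ) : GolayPt → ℤ := fun i => ∑ k : Fin 8, if octPts k = i then f k else 0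

theorem octPts_ok : (∀ k, baseOctad (octPts k) ≠ 0) ∧ (∀ i, baseOctad i ≠ 0 → ∃ k, octPts k = i) ∧
    (∀ k l, octPts k = octPts l → k = l) := by
  decide +kernel

theorem onOctad_pts (f : Fin 8 → ℤ) (k : Fin 8) : onOctad f (octPts k) = f k := by
  rw [onOctad, Finset.sum_eq_single k]
  · simp
  · intro l _ hl
    rw [if_neg fun e => hl (octPts_ok.2.2 l k e)]
  · simp

theorem onOctad_out (f : Fin 8 → ℤ) {i : GolayPt} (h : baseOctad i = 0) : onOctad f i = 0 :=
  Finset.sum_eq_zero fun k _ => if_neg fun e => octPts_ok.1 k (by rw [e]; exact h)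

/-- The lattice vectors supported by the base octad. -/
def octLattice : AddSubgroup leechLattice where
  carrier := {v | ∀ i, baseOctad i = 0 → (v : GolayPt → ℤ) i = 0}
  zero_mem' i _ := rfl
  add_mem' {a b} ha hb i hi := by
    show (a : GolayPt → ℤ) i + (b : GolayPt → ℤ) i = 0
    rw [ha i hi, hb i hi, add_zero]
  neg_mem' {a} ha i hi := by
    show -(a : GolayPt → ℤ) i = 0
    rw [ha i hi, neg_zero]

/-- Halves of a hyperbolic basis modulo 2. -/
def hypHalf : Fin 4 ⊕ Fin 4 → GolayPt → ℤ
  | .inl j => onOctad (![![4, 0, 0, 0, 0, 0, 0, 0], ![2, 2, 2, 0, 0, 0, 0, 2],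
      ![2, 0, 0, 0, 2, 2, 0, 2], ![-2, -2, 0, 0, 0, -2, 2, 0]] j)
  | .inr j => onOctad (![![1, 3, -1, -1, -1, -1, -1, 1], ![2, 2, 0, 2, 0, 0, 0, 2],
      ![2, 0, 0, 0, 2, 0, 2, 2], ![-2, 0, -2, -2, 2, 0, 0, 0]] j)

/-- The vector of a `0`/`1` pattern on the octad. -/
def repHalf (n : ℕ) : GolayPt → ℤ := onOctad fun k =>
  (if n.testBit 0 then 1 else 0) +
    2 * (if k = 0 then (if (∑ i : Fin 7, (if n.testBit (i + 2) then 1 else 0 : ℕ)) % 2 = 1 then 1 else 0)
      else (if n.testBit (k + 1) then 1 else 0)) +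
    (if k = 0 ∧ n.testBit 1 then 4 else 0)

theorem hypHalf_ok : ∀ j, (red (hypHalf j) = 0 ∨ red (hypHalf j) = baseOctad) ∧
    (∑ i, hypHalf j i) % 4 = 0 := by
  decide +kernel

theorem repHalf_ok : ∀ n : Fin 512, (red (repHalf n) = 0 ∨ red (repHalf n) = baseOctad) ∧
    (∑ i, repHalf n i) % 4 = 0 := by
  decide +kernel

theorem twice_mem {a : GolayPt → ℤ} (h : red a = 0 ∨ red a = baseOctad)
    (h4 : (∑ i, a i) % 4 = 0) : (fun i => 2 * a i) ∈ leechLattice :=
  two_mul_mem (by rcases h with e | e <;> rw [e]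
                  · exact Submodule.zero_mem _
                  · exact baseOctad_mem) (Int.dvd_of_emod_eq_zero h4)

/-- The basis vectors. -/
def hyp (j : Fin 4 ⊕ Fin 4) : octLattice :=
  ⟨⟨fun i => 2 * hypHalf j i, twice_mem (hypHalf_ok j).1 (hypHalf_ok j).2⟩, fun i hi => by
    show 2 * hypHalf j i = 0
    cases j <;> simp [hypHalf, onOctad_out _ hi]⟩

/-- The representative with a given pattern. -/
def rep (n : Fin 512) : octLattice :=
  ⟨⟨fun i => 2 * repHalf n i, twice_mem (repHalf_ok n).1 (repHalf_ok n).2⟩, fun i hi => by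
    show 2 * repHalf n i = 0
    simp [repHalf, onOctad_out _ hi]⟩

theorem pattern_cover : ∀ (s k : Bool) (f : Fin 7 → Bool), ∃ n : Fin 512,
    (n : ℕ).testBit 0 = s ∧ (n : ℕ).testBit 1 = k ∧ ∀ i : Fin 7, (n : ℕ).testBit (i + 2) = f i := by
  intro s k f
  refine ⟨⟨(if s then 1 else 0) + (if k then 2 else 0) +
    ∑ i : Fin 7, if f i then 2 ^ ((i : ℕ) + 2) else 0, ?_⟩, ?_⟩
  · have h : (∑ i : Fin 7, if f i then 2 ^ ((i : ℕ) + 2) else 0) ≤ ∑ i : Fin 7, 2 ^ ((i : ℕ) + 2) :=
      Finset.sum_le_sum fun i _ => by split <;> simp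
    have e : (∑ i : Fin 7, 2 ^ ((i : ℕ) + 2)) = 508 := by decide +kernel
    split_ifs <;> omega
  · revert s k f; decide +kernel

theorem oct_rep {x : leechLattice} (hx : x ∈ octLattice) :
    ∃ n : Fin 512, ∃ w : leechLattice, w ∈ octLattice ∧ x = rep n + (w + w) := by
  classical
  rcases leech_cases x.2 with ⟨a, ha, hac, has⟩ | ⟨a, ha, -, -⟩
  swap
  · exfalso
    obtain ⟨i, hi⟩ : ∃ i, baseOctad i = 0 := ⟨outPt, formHalf_ok.2.2.2.1⟩
    have := hx i hi
    rw [ha i] at this
    omega
  have hout : ∀ i, baseOctad i = 0 → a i = 0 := fun i hi => by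
    have := hx i hi; rw [ha i] at this; omega
  have hsw : red a = 0 ∨ red a = baseOctad := by
    refine subword_cases hac baseOctad_mem
      (le_trans (card_twoWord 0 1 (by decide)).le (by norm_num)) (funext fun i => ?_)
    rw [Pi.mul_apply]
    rcases eq_or_ne (baseOctad i) 0 with h | h
    · rw [h, mul_zero, red_apply, hout i h, Int.cast_zero]
    · have h1 : baseOctad i = 1 := by revert h; generalize baseOctad i = z; revert z; decide
      rw [h1, mul_one]
  -- the common parity and the halves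
  obtain ⟨s, y, hs, hy⟩ : ∃ (s : Bool) (y : Fin 8 → ℤ), True ∧
      ∀ k, a (octPts k) = (if s then 1 else 0) + 2 * y k := by
    rcases hsw with e | e
    · refine ⟨false, fun k => a (octPts k) / 2, trivial, fun k => ?_⟩
      have : (2 : ℤ) ∣ a (octPts k) :=
        (intCast_two_eq_zero _).1 ((congrFun e (octPts k)).trans rfl)
      simp; omega
    · refine ⟨true, fun k => (a (octPts k) - 1) / 2, trivial, fun k => ?_⟩
      have : a (octPts k) % 2 = 1 :=
        ne_zero_of_mem_red.1 (by rw [e]; exact octPts_ok.1 k)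
      simp; omega
  have hsum : ∑ i, a i = ∑ k, a (octPts k) := by
    rw [← Finset.sum_image (s := Finset.univ) (g := octPts) (fun k _ l _ h => octPts_ok.2.2 k l h)]
    refine (Finset.sum_subset (Finset.subset_univ _) fun i _ hi => hout i ?_).symm
    by_contra h
    obtain ⟨k, hk⟩ := octPts_ok.2.1 i h
    exact hi (Finset.mem_image.2 ⟨k, Finset.mem_univ _, hk⟩)
  have heven : (2 : ℤ) ∣ ∑ k, y k := by
    rw [hsum, Finset.sum_congr rfl fun k _ => hy k, Finset.sum_add_distrib, ← Finset.mul_sum] at has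
    simp only [Finset.sum_const, Finset.card_univ, Fintype.card_fin] at has
    split_ifs at has <;> simp at has <;> omega
  let bit : Fin 8 → ℤ := fun k => y k % 2
  have hbit : ∀ k, y k = bit k + 2 * (y k / 2) := fun k => by simp only [bit]; omega
  set K := ∑ k, y k / 2 with hK
  obtain ⟨n, hn0, hn1, hnf⟩ := pattern_cover s (decide (K % 2 = 1))
    (fun i => decide (bit i.succ = 1))
  have hb01 : ∀ k, bit k = 0 ∨ bit k = 1 := fun k => by simp only [bit]; omega
  have hbits : ∀ i : Fin 7, ((if (n : ℕ).testBit (i + 2) then 1 else 0 : ℕ) : ℤ) = bit i.succ := by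
    intro i
    rw [hnf i]
    rcases hb01 i.succ with e | e <;> simp [e]
  have hzero : (if (∑ i : Fin 7, (if (n : ℕ).testBit (i + 2) then 1 else 0 : ℕ)) % 2 = 1
      then (1 : ℤ) else 0) = bit 0 := by
    have h1 : (((∑ i : Fin 7, (if (n : ℕ).testBit (i + 2) then 1 else 0 : ℕ)) : ℕ) : ℤ) =
        ∑ i : Fin 7, bit i.succ := by
      rw [Nat.cast_sum]; exact Finset.sum_congr rfl fun i _ => hbits i
    generalize (∑ i : Fin 7, (if (n : ℕ).testBit (i + 2) then 1 else 0 : ℕ)) = T at h1 ⊢
    rw [Finset.sum_congr rfl fun k _ => hbit k, Finset.sum_add_distrib, ← Finset.mul_sum,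
      Fin.sum_univ_succ] at heven
    rcases hb01 0 with e | e <;> split_ifs <;> omega
  let e : Fin 8 → ℤ := fun k => y k / 2 - (if k = 0 ∧ K % 2 = 1 then 1 else 0)
  have hw : (fun i => 4 * onOctad e i) ∈ leechLattice := by
    refine four_mul_mem_iff.2 ?_
    have : ∑ i, onOctad e i = ∑ k, e k := by
      simp only [onOctad]
      rw [Finset.sum_comm]
      simp
    rw [this]
    simp only [e, Finset.sum_sub_distrib]
    rw [← hK]
    by_cases h : K % 2 = 1
    · simp only [h, and_true, Finset.sum_ite_eq', Finset.mem_univ, if_true]; omega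
    · simp only [h, and_false, if_false, Finset.sum_const_zero]; omega
  refine ⟨n, ⟨_, hw⟩, fun i hi => by simp [onOctad_out _ hi], Subtype.ext (funext fun i => ?_)⟩
  show (x : GolayPt → ℤ) i = 2 * repHalf n i + (4 * onOctad e i + 4 * onOctad e i)
  rw [ha i]
  rcases eq_or_ne (baseOctad i) 0 with hi | hi
  · rw [hout i hi, repHalf, onOctad_out _ hi, onOctad_out _ hi]; ring
  · obtain ⟨k, rfl⟩ := octPts_ok.2.1 i hi
    rw [repHalf, onOctad_pts, onOctad_pts, hy k, hbit k, hn0, hn1]
    rcases Fin.eq_zero_or_eq_succ k with rfl | ⟨j, rfl⟩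
    · simp only [if_true, true_and, hzero, e, decide_eq_true_eq]
      split_ifs <;> ring
    · simp only [Fin.succ_ne_zero, if_false, false_and, e, Fin.val_succ, sub_zero,
        show ∀ m : ℕ, m + 1 + 1 = m + 2 from fun m => rfl]
      have hb := hbits j
      split_ifs at hb ⊢ <;> simp only [Nat.cast_one, Nat.cast_zero] at hb <;> rw [← hb] <;> ring

theorem rep_norm : ∀ n : Fin 512, (∑ i, (2 * repHalf n i) ^ 2) % 32 = 0 := by
  decide +kernel

theorem oct_norm {x : leechLattice} (hx : x ∈ octLattice) : (32 : ℤ) ∣ sqNorm (x : GolayPt → ℤ) := by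
  obtain ⟨n, w, -, rfl⟩ := oct_rep hx
  refine (Cg.sqNorm_iff (u := (rep n : leechLattice) + (w + w)) (v := (rep n : leechLattice))
    ⟨w, by abel⟩).2 ?_
  exact Int.dvd_of_emod_eq_zero (rep_norm n)

theorem oct_dot {x y : leechLattice} (hx : x ∈ octLattice) (hy : y ∈ octLattice) :
    (16 : ℤ) ∣ dotInt (x : GolayPt → ℤ) (y : GolayPt → ℤ) := by
  have h1 := oct_norm hx
  have h2 := oct_norm hy
  have h3 := oct_norm (add_mem hx hy)
  rw [AddSubgroup.coe_add, sqNorm_add] at h3
  omega

/-- The coordinates modulo 2 of a vector, from products with the basis. -/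
def coFun (x : GolayPt → ℤ) : OctSpace := fun j =>
  ((dotInt x (fun i => 2 * hypHalf (Sum.swap j) i) / 16 : ℤ) : ZMod 2)

/-- The coordinates modulo 2. -/
def coHom : octLattice →+ OctSpace :=
  AddMonoidHom.mk' (fun x => coFun ((x : leechLattice) : GolayPt → ℤ)) fun x y => funext fun j => by
    have hb : ∀ z : octLattice, (16 : ℤ) ∣
        dotInt ((z : leechLattice) : GolayPt → ℤ) (fun i => 2 * hypHalf (Sum.swap j) i) :=
      fun z => oct_dot z.2 (hyp (Sum.swap j)).2
    obtain ⟨p, hp⟩ := hb x
    obtain ⟨q, hq⟩ := hb y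
    show ((_ / 16 : ℤ) : ZMod 2) = ((_ / 16 : ℤ) : ZMod 2) + ((_ / 16 : ℤ) : ZMod 2)
    rw [show dotInt (((x + y : octLattice) : leechLattice) : GolayPt → ℤ)
        (fun i => 2 * hypHalf (Sum.swap j) i) = 16 * (p + q) by
      rw [mul_add, ← hp, ← hq]
      simp only [dotInt, AddSubgroup.coe_add, Pi.add_apply, add_mul, Finset.sum_add_distrib],
      hp, hq]
    simp

theorem coHom_apply (x : octLattice) : coHom x = coFun ((x : leechLattice) : GolayPt → ℤ) := rfl

theorem coHom_twice (w : octLattice) : coHom (w + w) = 0 := by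
  rw [map_add]; exact funext fun j => CharTwo.add_self_eq_zero _

theorem coHom_cg {x y : octLattice} (h : Cg (x : leechLattice) y) : coHom x = coHom y := by
  obtain ⟨w, hw⟩ := h
  have hwm : w ∈ octLattice := fun i hi => by
    have h1 := congrFun (congrArg Subtype.val hw) i
    simp only [AddSubgroup.coe_sub, AddSubgroup.coe_add, Pi.sub_apply, Pi.add_apply,
      x.2 i hi, y.2 i hi] at h1
    omega
  rw [← sub_eq_zero, ← map_sub, show x - y = (⟨w, hwm⟩ : octLattice) + ⟨w, hwm⟩ from
    Subtype.ext hw, coHom_twice]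

theorem rep_zero : ∀ n : Fin 512, coFun (fun i => 2 * repHalf n i) = 0 →
    (∀ i, repHalf n i % 2 = 0) ∧ (∑ i, repHalf n i / 2) % 4 = 0 ∧
      (red (fun i => repHalf n i / 2) = 0 ∨ red (fun i => repHalf n i / 2) = baseOctad) := by
  decide +kernel

theorem cg_zero_of_co {x : octLattice} (h : coHom x = 0) : Cg (x : leechLattice) 0 := by
  obtain ⟨n, w, hw, hx⟩ := oct_rep x.2
  have hr : coHom (rep n) = 0 := by
    rw [← h]
    exact (coHom_cg (show Cg (x : leechLattice) (rep n) from ⟨w, by rw [hx]; abel⟩)).symm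
  obtain ⟨h2, h4, hred⟩ := rep_zero n hr
  have hm := twice_mem hred h4
  refine (show Cg (x : leechLattice) (rep n) from ⟨w, by rw [hx]; abel⟩).trans
    ⟨⟨_, hm⟩, Subtype.ext (funext fun i => ?_)⟩
  show 2 * repHalf n i - 0 = 2 * (repHalf n i / 2) + 2 * (repHalf n i / 2)
  have := h2 i
  omega

theorem co_eq_iff {x y : octLattice} : coHom x = coHom y ↔ Cg (x : leechLattice) y := by
  refine ⟨fun h => ?_, coHom_cg⟩
  obtain ⟨w, hw⟩ := cg_zero_of_co (x := x - y) (by rw [map_sub, h, sub_self])
  exact ⟨w, by rw [← hw]; simp⟩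

/-- A section of the coordinates. -/
def octSec (v : OctSpace) : octLattice := ∑ j, (v j).val • hyp j

theorem coHom_hyp : ∀ j, coFun (fun i => 2 * hypHalf j i) = Pi.single j 1 := by
  decide +kernel

theorem coHom_octSec (v : OctSpace) : coHom (octSec v) = v := by
  rw [octSec, map_sum]
  funext k
  rw [Finset.sum_apply, Finset.sum_eq_single k]
  · rw [map_nsmul, Pi.smul_apply, show coHom (hyp k) = Pi.single k 1 from coHom_hyp k,
      Pi.single_eq_same, nsmul_one, ZMod.natCast_zmod_val]
  · intro j _ hj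
    rw [map_nsmul, Pi.smul_apply, show coHom (hyp j) = Pi.single j 1 from coHom_hyp j,
      Pi.single_eq_of_ne hj.symm, smul_zero]
  · simp

theorem rep_form : ∀ n : Fin 512, octForm (coFun fun i => 2 * repHalf n i) =
    (((∑ i, (2 * repHalf n i) ^ 2) / 32 : ℤ) : ZMod 2) := by
  decide +kernel

theorem octForm_co (x : octLattice) :
    octForm (coHom x) = ((sqNorm ((x : leechLattice) : GolayPt → ℤ) / 32 : ℤ) : ZMod 2) := by
  obtain ⟨n, w, hw, hx⟩ := oct_rep x.2
  rw [coHom_cg (show Cg (x : leechLattice) (rep n) from ⟨w, by rw [hx]; abel⟩), coHom_apply]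
  refine (rep_form n).trans ?_
  obtain ⟨p, hp⟩ := oct_norm (rep n).2
  obtain ⟨q, hq⟩ := oct_dot (rep n).2 hw
  obtain ⟨r, hr⟩ := oct_norm hw
  have hN : sqNorm ((x : leechLattice) : GolayPt → ℤ) = 32 * (p + 2 * (q + 2 * r)) := by
    rw [hx, AddSubgroup.coe_add, AddSubgroup.coe_add, sqNorm_add, hp,
      show sqNorm ((w : GolayPt → ℤ) + (w : GolayPt → ℤ)) = 4 * sqNorm (w : GolayPt → ℤ) by
        rw [sqNorm_add, show dotInt (w : GolayPt → ℤ) (w : GolayPt → ℤ) = sqNorm (w : GolayPt → ℤ) by
          simp [dotInt, sqNorm, sq]]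
        ring,
      dotInt_add_right', hq, hr]
    ring
  rw [hN, show (∑ i, (2 * repHalf n i) ^ 2) = sqNorm ((rep n : leechLattice) : GolayPt → ℤ) from rfl,
    hp, Int.mul_ediv_cancel_left _ (by norm_num), Int.mul_ediv_cancel_left _ (by norm_num),
    Int.cast_add, Int.cast_mul, show ((2 : ℤ) : ZMod 2) = 0 from rfl, zero_mul, add_zero]

/-! ### The action -/

/-- The sign change at the base octad. -/
noncomputable def epsOct : Co0 := signs baseOctad baseOctad_mem

/-- Its centraliser. -/
noncomputable abbrev octCent : Subgroup Co0 := Subgroup.centralizer ({epsOct} : Set Co0)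

theorem mem_octLattice_iff (v : leechLattice) : v ∈ octLattice ↔ epsOct • v = -v := by
  have hz : ∀ z : ZMod 2, z ≠ 0 → z = 1 := by decide
  constructor
  · intro h
    refine Subtype.ext (funext fun i => ?_)
    rw [epsOct, signs_apply, AddSubgroup.coe_neg, Pi.neg_apply]
    split_ifs with hb
    · rw [h i hb]; rfl
    · rfl
  · intro h i hi
    have := congrFun (congrArg Subtype.val h) i
    rw [epsOct, signs_apply, if_pos hi, AddSubgroup.coe_neg, Pi.neg_apply] at this
    omega

theorem smul_mem_octLattice (g : octCent) {v : leechLattice} (hv : v ∈ octLattice) :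
    (g : Co0) • v ∈ octLattice := by
  rw [mem_octLattice_iff] at hv ⊢
  have hc := Subgroup.mem_centralizer_singleton_iff.1 g.2
  rw [← mul_smul, ← hc, mul_smul, hv, co0_map_neg]

/-- The action on the sublattice. -/
noncomputable def octAct (g : octCent) : octLattice →+ octLattice :=
  AddMonoidHom.mk' (fun x => ⟨(g : Co0) • (x : leechLattice), smul_mem_octLattice g x.2⟩)
    fun x y => Subtype.ext (co0_map_add (g : Co0) x y)

theorem co_act_congr (g : octCent) {x y : octLattice} (h : coHom x = coHom y) :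
    coHom (octAct g x) = coHom (octAct g y) :=
  coHom_cg ((co_eq_iff.1 h).smul (g : Co0))

/-- The matrix of an element of the centraliser. -/
noncomputable def octMat (g : octCent) : Matrix (Fin 4 ⊕ Fin 4) (Fin 4 ⊕ Fin 4) (ZMod 2) :=
  Matrix.of fun i j => coHom (octAct g (hyp j)) i

theorem octMat_mulVec (g : octCent) (x : octLattice) :
    octMat g *ᵥ coHom x = coHom (octAct g x) := by
  rw [co_act_congr g (show coHom x = coHom (octSec (coHom x)) from (coHom_octSec _).symm)]
  conv_rhs => rw [octSec, map_sum, map_sum]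
  funext i
  rw [Matrix.mulVec, dotProduct, Finset.sum_apply]
  refine Finset.sum_congr rfl fun j _ => ?_
  rw [map_nsmul, map_nsmul, Pi.smul_apply, nsmul_eq_mul, ZMod.natCast_zmod_val, mul_comm]
  rfl

theorem octMat_apply (g : octCent) (v : OctSpace) :
    octMat g *ᵥ v = coHom (octAct g (octSec v)) := by
  rw [← octMat_mulVec, coHom_octSec]

/-- The matrices form a representation. -/
noncomputable def octMatHom : octCent →* Matrix (Fin 4 ⊕ Fin 4) (Fin 4 ⊕ Fin 4) (ZMod 2) where
  toFun := octMat
  map_one' := Matrix.ext_of_mulVec_single fun j => by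
    rw [octMat_apply, Matrix.one_mulVec]
    conv_rhs => rw [← coHom_octSec (Pi.single j 1)]
    exact congrArg coHom (Subtype.ext (one_smul Co0 _))
  map_mul' g h := Matrix.ext_of_mulVec_single fun j => by
    rw [← Matrix.mulVec_mulVec, octMat_apply h, octMat_mulVec, octMat_apply]
    exact congrArg coHom (Subtype.ext (mul_smul _ _ _))

theorem octMat_isometry (g : octCent) (v : OctSpace) : octForm (octMat g *ᵥ v) = octForm v := by
  rw [octMat_apply]
  conv_rhs => rw [← coHom_octSec v]
  rw [octForm_co, octForm_co, show ((octAct g (octSec v) : octLattice) : leechLattice) =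
    (g : Co0) • ((octSec v : octLattice) : leechLattice) from rfl, co0_sqNorm]

/-- The representation on the octad space. -/
noncomputable def octRep : octCent →* Cfsg.isometryGroup (ZMod 2) octForm :=
  octMatHom.toHomUnits.codRestrict _ fun g => CfsgLib.OrthGeo.mem_isometryGroup.2 fun v => by
    exact octMat_isometry g v

/-! ### Transitivity on singular points -/

/-- A bit mask as a vector. -/
def decVec (v : ℕ) : OctSpace := fun j =>
  if v.testBit (match j with | .inl j => (j : ℕ) | .inr j => (j : ℕ) + 4) then 1 else 0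

/-- Generators as maps of integer vectors. -/
def genFun : Fin 7 → (GolayPt → ℤ) → GolayPt → ℤ
  | ⟨0, _⟩ => xiFun
  | ⟨6, _⟩ => fun x i => if inLiftWord (some 0) i = 0 then x i else -x i
  | ⟨k + 1, _⟩ => fun x i => x (tableFun (spreadTables (Fin.ofNat 5 k)).1.2 i)

theorem gen_support : ∀ (k : Fin 5) (i : GolayPt),
    baseOctad (tableFun (spreadTables k).1.2 i) = baseOctad i := fun k i => (spread_ok k).2.2.1 i

theorem xi_blocks : ∀ i j, tetrad i = tetrad j → baseOctad i = baseOctad j := by decide +kernel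

theorem xi_comm : xi * epsOct = epsOct * xi := by
  refine co0_ext fun j => Subtype.ext (funext fun i => ?_)
  rw [mul_smul, mul_smul, xi_apply, epsOct, signs_apply, xi_apply]
  have hs : ∀ (v : leechLattice), (((signs baseOctad baseOctad_mem • v : leechLattice) : GolayPt → ℤ)) =
      fun p => if baseOctad p = 0 then (v : GolayPt → ℤ) p else -(v : GolayPt → ℤ) p := fun v =>
    funext fun p => signs_apply _ _ _ _
  rw [hs]
  have hsum : tetSum (fun p => if baseOctad p = 0 then ((axisVec j : leechLattice) : GolayPt → ℤ) p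
      else -((axisVec j : leechLattice) : GolayPt → ℤ) p) (tetrad i) =
      if baseOctad i = 0 then tetSum (axisVec j : leechLattice).1 (tetrad i)
      else -tetSum (axisVec j : leechLattice).1 (tetrad i) := by
    split_ifs with hb
    · refine Finset.sum_congr rfl fun p hp => ?_
      exact if_pos (by rw [xi_blocks p i (Finset.mem_filter.1 hp).2]; exact hb)
    · rw [tetSum, tetSum, ← Finset.sum_neg_distrib]
      refine Finset.sum_congr rfl fun p hp => ?_
      exact if_neg (by rw [xi_blocks p i (Finset.mem_filter.1 hp).2]; exact hb)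
  obtain ⟨q, hq⟩ := two_dvd_tetSum (axisVec j : leechLattice).2 (tetrad i)
  simp only [xiFun, hsum]
  split_ifs <;> (try rw [hq]) <;> omega

theorem spreadPerm_comm (k : Fin 5) : permHom (spreadPerm k) * epsOct = epsOct * permHom (spreadPerm k) := by
  refine co0_ext fun j => Subtype.ext (funext fun i => ?_)
  simp only [mul_smul, epsOct, signs_apply, permHom_apply]
  rw [show baseOctad ((spreadPerm k).1.symm i) = baseOctad i from gen_support k i]

theorem signs_comm {c : GolayPt → ZMod 2} (hc : c ∈ golayCode) :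
    signs c hc * epsOct = epsOct * signs c hc := by
  refine co0_ext fun j => Subtype.ext (funext fun i => ?_)
  simp only [mul_smul, epsOct, signs_apply]
  split_ifs <;> rfl

/-- The generators. -/
noncomputable def gen : Fin 7 → octCent
  | ⟨0, _⟩ => ⟨xi, Subgroup.mem_centralizer_singleton_iff.2 xi_comm⟩
  | ⟨6, _⟩ => ⟨signs (inLiftWord (some 0)) (inLiftWord_mem _),
      Subgroup.mem_centralizer_singleton_iff.2 (signs_comm _)⟩
  | ⟨k + 1, _⟩ => ⟨permHom (spreadPerm (Fin.ofNat 5 k)),
      Subgroup.mem_centralizer_singleton_iff.2 (spreadPerm_comm _)⟩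

theorem gen_apply (k : Fin 7) (v : leechLattice) :
    (((gen k : Co0) • v : leechLattice) : GolayPt → ℤ) = genFun k (v : GolayPt → ℤ) := by
  fin_cases k
  · exact xi_apply v
  all_goals funext i
  all_goals first
    | exact permHom_apply _ _ _
    | exact signs_apply _ (inLiftWord_mem _) _ _

/-- Images of the basis under the generators, as bit masks. -/
def genTable : Fin 7 → Fin 8 → ℕ :=
  ![![110, 155, 157, 103, 230, 185, 217, 118], ![1, 225, 161, 74, 243, 133, 204, 33],
    ![1, 170, 41, 44, 118, 36, 102, 194], ![1, 73, 165, 10, 22, 4, 2, 132],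
    ![1, 111, 96, 192, 63, 225, 45, 103], ![1, 165, 236, 10, 22, 234, 161, 132],
    ![1, 2, 5, 8, 93, 32, 65, 129]]

/-- The position of a coordinate. -/
def basisIdx : Fin 8 → Fin 4 ⊕ Fin 4 :=
  ![.inl 0, .inl 1, .inl 2, .inl 3, .inr 0, .inr 1, .inr 2, .inr 3]

/-- A generator applied to a mask. -/
def applyMask (k : Fin 7) (v : ℕ) : ℕ :=
  (List.finRange 8).foldl (fun r (j : Fin 8) => if v.testBit j.val then r ^^^ genTable k j else r) 0

theorem genTable_ok : ∀ (k : Fin 7) (j : Fin 8),
    coFun (genFun k fun i => 2 * hypHalf (basisIdx j) i) = decVec (genTable k j) := by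
  decide +kernel

theorem applyMask_ok : ∀ (k : Fin 7) (v : Fin 256) (i : Fin 4 ⊕ Fin 4),
    decVec (applyMask k v) i =
      ∑ j : Fin 8, decVec v (basisIdx j) * decVec (genTable k j) i := by
  decide +kernel

theorem basisIdx_sum (f : Fin 4 ⊕ Fin 4 → ZMod 2) : ∑ j, f (basisIdx j) = ∑ j, f j := by
  refine Fintype.sum_bijective basisIdx ?_ _ _ fun j => rfl
  decide +kernel

theorem gen_mask (k : Fin 7) (v : Fin 256) :
    octMat (gen k) *ᵥ decVec v = decVec (applyMask k v) := by
  funext i
  rw [applyMask_ok, Matrix.mulVec, dotProduct, ← basisIdx_sum]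
  refine Finset.sum_congr rfl fun j _ => ?_
  rw [mul_comm]
  congr 1
  show coFun ((((gen k : Co0) • (hyp (basisIdx j) : leechLattice) : leechLattice)) : GolayPt → ℤ) i = _
  rw [gen_apply, ← genTable_ok k j]
  rfl

/-- A breadth-first tree on the singular points: point, generator, parent. -/
def singTree : List (ℕ × Fin 7 × ℕ) := [(110, 0, 1), (67, 1, 110), (237, 2, 110), (224, 3, 110), (3, 4, 110), (8, 5, 110), (44, 0, 67), (205, 2, 67), (74, 3, 67), (5, 5, 67), (66, 6, 67), (130, 0, 237), (132, 2, 237), (10, 4, 237), (40, 5, 237), (236, 6, 237), (22, 0, 224), (104, 1, 224), (128, 2, 224), (171, 4, 224), (207, 5, 224), (245, 0, 3), (72, 3, 3), (164, 5, 3), (103, 0, 8), (192, 4, 8), (33, 2, 44), (65, 4, 44), (12, 5, 44), (45, 6, 44), (59, 0, 205), (7, 1, 205), (160, 2, 205), (235, 4, 205), (194, 5, 205), (204, 6, 205), (37, 0, 74), (14, 5, 74), (75, 6, 74), (243, 0, 5), (97, 4, 5), (4, 6, 5), (131, 6, 130), (252, 0, 10), (134, 2, 10), (175, 4, 10), (222, 0, 40), (133, 2, 236), (11, 4, 236), (41,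 5, 236), (179, 1, 22), (250, 3, 22), (48, 4, 22), (95, 5, 22), (90, 6, 22), (105, 6, 104), (118, 0, 128), (129, 6, 128), (93, 0, 171), (170, 6, 171), (230, 1, 207), (206, 6, 207), (52, 5, 245), (185, 6, 245), (190, 0, 72), (73, 6, 72), (82, 0, 164), (215, 0, 33), (183, 0, 65), (64, 6, 65), (13, 6, 12), (111, 1, 45), (32, 2, 45), (220, 1, 59), (213, 2, 59), (80, 3, 59), (112, 4, 59), (6, 6, 7), (161, 6, 160), (85, 0, 204), (234, 4, 204), (195, 5, 204), (36, 6, 37), (15, 6, 14), (102, 1, 75), (225, 2, 75), (123, 1, 243), (125, 5, 243), (96, 6, 97), (157, 0, 4), (165, 3, 4), (193, 1, 131), (9, 4, 131), (63, 5, 252), (176, 6, 252), (20, 1, 222), (186, 4, 222), (146, 6, 222), (135, 2, 11), (174, 4, 11), (255, 6, 179), (18, 3, 48), (148, 1, 90), (150, 2, 90), (87, 3, 90), (189, 4, 90), (24, 5, 90), (2, 1, 105), (16, 6, 93), (51, 0, 170), (231, 6, 230), (120, 6, 52), (28, 1, 185), (115, 5, 185), (208, 0, 73), (30, 6, 82), (155, 6, 215), (217, 0, 64), (144, 6, 220), (153, 6, 213), (60, 6, 112), (159, 1,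 85), (56, 2, 85), (55, 6, 123), (249, 4, 157), (117, 5, 157), (88, 6, 20), (246, 6, 186), (219, 3, 146), (126, 5, 148), (26, 6, 87), (240, 6, 189), (210, 2, 208), (180, 4, 217)]

/-- The points reached by a tree, when it is valid. -/
def treeReach : List (ℕ × Fin 7 × ℕ) → List ℕ → List ℕ
  | [], known => known
  | (v, k, p) :: l, known =>
    if p ∈ known ∧ p < 256 ∧ applyMask k p = v then treeReach l (v :: known) else []

theorem treeReach_spec {P : ℕ → Prop} (hstep : ∀ (k : Fin 7) (p : ℕ), p < 256 → P p → P (applyMask k p)) :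
    ∀ (l : List (ℕ × Fin 7 × ℕ)) (known : List ℕ), (∀ v ∈ known, P v) →
      ∀ v ∈ treeReach l known, P v := by
  intro l
  induction l with
  | nil => exact fun known h => h
  | cons e l ih =>
    obtain ⟨v, k, p⟩ := e
    intro known h
    rw [treeReach]
    split_ifs with hc
    · refine ih _ fun u hu => ?_
      rcases List.mem_cons.1 hu with rfl | hu
      · exact hc.2.2 ▸ hstep k p hc.2.1 (h p hc.1)
      · exact h u hu
    · simp

theorem singular_reached : ∀ v : Fin 256, octForm (decVec v) = 0 → decVec v ≠ 0 →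
    (v : ℕ) ∈ treeReach singTree [1] := by
  decide +kernel

theorem decVec_surjective : ∀ u : OctSpace, ∃ v : Fin 256, decVec v = u := by
  intro u
  refine ⟨⟨∑ j : Fin 8, if u (basisIdx j) = 1 then 2 ^ (j : ℕ) else 0, ?_⟩, ?_⟩
  · refine lt_of_le_of_lt (Finset.sum_le_sum fun j _ => ?_) (show ∑ j : Fin 8, 2 ^ (j : ℕ) < 256 by
      decide +kernel)
    split <;> simp
  · revert u; decide +kernel

/-- The axis in the sublattice. -/
noncomputable def octAxis : octLattice :=
  ⟨axisVec none, fun i hi => by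
    show single none 8 i = 0
    rw [single, if_neg]
    intro e
    exact formHalf_ok.2.2.2.2.1 (by rw [e] at hi; exact hi)⟩

theorem coFun_axis : coFun (single none 8) = decVec 1 := by decide +kernel

/-- The centraliser is transitive on singular points. -/
theorem singular_transitive {u : OctSpace} (hq : octForm u = 0) (h0 : u ≠ 0) :
    ∃ g : octCent, coHom (octAct g octAxis) = u := by
  obtain ⟨v, rfl⟩ := decVec_surjective u
  have h := treeReach_spec (P := fun p => ∃ g : octCent, coHom (octAct g octAxis) = decVec p)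
    (fun k p hp ⟨g, hg⟩ => ⟨gen k * g, by
      rw [← gen_mask k ⟨p, hp⟩, ← hg, octMat_mulVec]
      exact congrArg coHom (Subtype.ext (mul_smul _ _ _))⟩)
    singTree [1] (fun p hp => by
      rw [List.mem_singleton] at hp
      subst hp
      exact ⟨1, Eq.trans (congrArg coHom (Subtype.ext (one_smul Co0 _))) coFun_axis⟩)
    _ (singular_reached v hq h0)
  exact h

end CfsgLib.Leech
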