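import Mathlib
import Cfsg.Agent.Leech.OctadSection
import Cfsg.Agent.Leech.Co1Simple
import Cfsg.Agent.Leech.PairOrbits
import Cfsg.Agent.LocalP.Basic
import Cfsg.Agent.PGroup.Frattini
import Cfsg.Agent.FStar.SelfCentralizing
import Cfsg.Agent.QuadMap.Gauss
import Cfsg.Agent.S0296
import Cfsg.Prelude.Def_Transfer
import Cfsg.Agent.Eq.Def_Transfer

set_option autoImplicit false
set_option linter.style.haveILetI false

/-! The centraliser in `Co1` of the sign change at an octad: an extraspecial group of order `2 ^ 9`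
extended by the orthogonal group of plus type in dimension 8 over two elements. -/

namespace CfsgLib.Leech

open Cfsg
open scoped Pointwise Matrix commutatorElement

/-! ### The pointwise stabiliser of the sublattice -/

/-- Combinations of the five outer words. -/
def outCombo (b : Fin 5 → ZMod 2) : GolayPt → ZMod 2 := fun i => ∑ k, b k * outCheck k i

theorem outCheck_orth : ∀ (k : Fin 5) (t : ZMod 23),
    (∑ p, qrTab t p * outCheck k p) = (0 : ZMod 2) ∧ (∑ p, outCheck k p) = (0 : ZMod 2) := by
  decide +kernel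

theorem outCheck_mem (k : Fin 5) : outCheck k ∈ golayCode := by
  refine (mem_code_iff _).2 ⟨fun t => ?_, ?_⟩
  · have := (outCheck_orth k t).1
    simp only [qrTab_eq] at this
    rw [dot₂_apply]; exact this
  · rw [dot₂_apply]; simp only [Pi.one_apply, one_mul]; exact (outCheck_orth k 0).2

theorem outCombo_mem (b : Fin 5 → ZMod 2) : outCombo b ∈ golayCode := by
  rw [show outCombo b = ∑ k, b k • outCheck k from funext fun i => by simp [outCombo]]
  exact Submodule.sum_mem _ fun k _ => Submodule.smul_mem _ _ (outCheck_mem k)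

theorem outCombo_facts :
    (∀ b : Fin 5 → ZMod 2, ∀ i, baseOctad i ≠ 0 → outCombo b i = 0) ∧
    (∀ b : Fin 5 → ZMod 2, ∀ k, (∑ p, outCombo b p * outDual k p) = b k) ∧
    outCombo 0 = 0 ∧ outCombo (Pi.single 4 1) = outWord := by
  decide +kernel

/-- The tables of the sixteen translations outside the octad. -/
def transTable : Fin 16 → Array ℕ :=
  ![
#[0, 1, 2, 3, 4, 5, 6, 7, 8, 9, 10, 11, 12, 13, 14, 15, 16, 17, 18, 19, 20, 21, 22, 23],
#[0, 1, 2, 3, 10, 5, 11, 12, 19, 22, 4, 6, 7, 20, 14, 16, 15, 17, 21, 8, 13, 18, 9, 23],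
#[0, 1, 2, 3, 16, 5, 21, 19, 12, 20, 15, 18, 8, 22, 14, 10, 4, 17, 11, 7, 9, 6, 13, 23],
#[0, 1, 2, 3, 15, 5, 18, 8, 7, 13, 16, 21, 19, 9, 14, 4, 10, 17, 6, 12, 22, 11, 20, 23],
#[0, 1, 2, 3, 7, 5, 22, 4, 15, 11, 12, 9, 10, 21, 14, 8, 19, 17, 20, 16, 18, 13, 6, 23],
#[0, 1, 2, 3, 12, 5, 9, 10, 16, 6, 7, 22, 4, 18, 14, 19, 8, 17, 13, 15, 21, 20, 11, 23],
#[0, 1, 2, 3, 19, 5, 13, 16, 10, 18, 8, 20, 15, 6, 14, 12, 7, 17, 9, 4, 11, 22, 21, 23],
#[0, 1, 2, 3, 8, 5, 20, 15, 4, 21, 19, 13, 16, 11, 14, 7, 12, 17, 22, 10, 6, 9, 18, 23],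
#[0, 1, 2, 3, 22, 5, 7, 6, 18, 10, 9, 12, 11, 16, 14, 20, 13, 17, 8, 21, 15, 19, 4, 23],
#[0, 1, 2, 3, 9, 5, 12, 11, 21, 4, 22, 7, 6, 15, 14, 13, 20, 17, 19, 18, 16, 8, 10, 23],
#[0, 1, 2, 3, 13, 5, 19, 21, 11, 15, 20, 8, 18, 4, 14, 9, 22, 17, 12, 6, 10, 7, 16, 23],
#[0, 1, 2, 3, 20, 5, 8, 18, 6, 16, 13, 19, 21, 10, 14, 22, 9, 17, 7, 11, 4, 12, 15, 23],
#[0, 1, 2, 3, 6, 5, 4, 22, 20, 12, 11, 10, 9, 19, 14, 18, 21, 17, 15, 13, 8, 16, 7, 23],
#[0, 1, 2, 3, 11, 5, 10, 9, 13, 7, 6, 4, 22, 8, 14, 21, 18, 17, 16, 20, 19, 15, 12, 23],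
#[0, 1, 2, 3, 21, 5, 16, 13, 9, 8, 18, 15, 20, 7, 14, 11, 6, 17, 10, 22, 12, 4, 19, 23],
#[0, 1, 2, 3, 18, 5, 15, 20, 22, 19, 21, 16, 13, 12, 14, 6, 11, 17, 4, 9, 7, 10, 8, 23]
  ]

theorem trans_facts : ∀ n : Fin 16,
    (∀ p, tableFun (transTable n) (tableFun (transTable n) p) = p) ∧
    (∀ i, baseOctad i ≠ 0 → tableFun (transTable n) i = i) := by
  decide +kernel

theorem trans_orth : ∀ n : Fin 16, ∀ t s : ZMod 23,
    (∑ p, qrTab s p * qrTab t (tableFun (transTable n) p)) = (0 : ZMod 2) ∧
    (∑ p, qrTab t (tableFun (transTable n) p)) = (0 : ZMod 2) := by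
  decide +kernel

/-- A translation. -/
def transM (n : Fin 16) : M24 :=
  ⟨⟨tableFun (transTable n), tableFun (transTable n), (trans_facts n).1, (trans_facts n).1⟩, by
    refine perm_mem_M24 _ fun t => (mem_code_iff _).2 ⟨fun s => ?_, ?_⟩
    · have := (trans_orth n t s).1
      simp only [qrTab_eq] at this
      rw [dot₂_apply]; exact this
    · have := (trans_orth n t 0).2
      simp only [qrTab_eq] at this
      rw [dot₂_apply]; simp only [Pi.one_apply, one_mul]; exact this⟩

theorem transM_sq (n : Fin 16) : transM n * transM n = 1 :=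
  Subtype.ext (Equiv.ext (trans_facts n).1)

theorem trans_cert :
    (∀ n m : Fin 16, (∀ p, tableFun (transTable n) p = tableFun (transTable m) p) → n = m) ∧
    (∀ n : Fin 16, ∀ b : Fin 5 → ZMod 2,
      (∀ i, outCombo b i + outCombo b (tableFun (transTable n) i) = 0) ∨
      (∀ i, outCombo b i + outCombo b (tableFun (transTable n) i) = outWord i)) ∧
    (∀ b : Fin 5 → ZMod 2, (∀ n i, outCombo b (tableFun (transTable n) i) = outCombo b i) →
      b = 0 ∨ b = Pi.single 4 1) ∧
    (∀ n : Fin 16, (∀ k i, outCheck k (tableFun (transTable n) i) = outCheck k i) →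
      ∀ p, tableFun (transTable n) p = p) ∧
    (∃ n : Fin 16, ∃ k : Fin 5, ∃ i, outCheck k (tableFun (transTable n) i) ≠ outCheck k i) := by
  decide +kernel

theorem transM_surjective (σ : M24) (h : ∀ i, baseOctad i ≠ 0 → σ.1 i = i) :
    ∃ n, transM n = σ := by
  classical
  have ho : support₂ baseOctad ∈ octads :=
    ⟨⟨baseOctad, baseOctad_mem, rfl⟩, card_twoWord 0 1 (by decide)⟩
  obtain ⟨hcard, -⟩ := CfsgLib.Mathieu.octPointFix_spec ho
  have hmem : ∀ τ : M24, (∀ i, baseOctad i ≠ 0 → τ.1 i = i) →
      τ.1 ∈ CfsgLib.Mathieu.octPointFix (support₂ baseOctad) := fun τ hτ =>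
    ⟨τ.2, (mem_fixingSubgroup_iff _).2 fun i hi =>
      hτ i ((mem_support₂_iff baseOctad i).1 (Finset.mem_coe.1 hi))⟩
  let f : Fin 16 → CfsgLib.Mathieu.octPointFix (support₂ baseOctad) :=
    fun n => ⟨(transM n).1, hmem (transM n) (trans_facts n).2⟩
  have hf : Function.Injective f := fun n m e =>
    trans_cert.1 n m fun p => congrArg (fun x => x.1 p) e
  obtain ⟨n, hn⟩ := ((Nat.bijective_iff_injective_and_card f).2
    ⟨hf, by rw [hcard, Nat.card_fin]⟩).2 ⟨σ.1, hmem σ h⟩
  exact ⟨n, Subtype.ext (congrArg Subtype.val hn :)⟩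

theorem outCombo_surjective {c : GolayPt → ZMod 2} (hc : c ∈ golayCode)
    (h : ∀ i, baseOctad i ≠ 0 → c i = 0) : ∃ b, outCombo b = c := by
  have hker : ∀ d : golayCode, (∀ i, baseOctad i ≠ 0 → d.1 i = 0) → d ∈ octadRes.ker := fun d hd =>
    funext fun i => by
      show baseOctad i * d.1 i = 0
      rcases eq_or_ne (baseOctad i) 0 with e | e
      · rw [e, zero_mul]
      · rw [hd i e, mul_zero]
  let f : (Fin 5 → ZMod 2) → octadRes.ker :=
    fun b => ⟨⟨outCombo b, outCombo_mem b⟩, hker _ (outCombo_facts.1 b)⟩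
  have hf : Function.Injective f := fun a b e => funext fun k => by
    rw [← outCombo_facts.2.1 a k, ← outCombo_facts.2.1 b k,
      show outCombo a = outCombo b from congrArg (fun x : octadRes.ker => x.1.1) e]
  haveI : Finite octadRes.ker := inferInstance
  have hle : Nat.card octadRes.ker ≤ Nat.card (Fin 5 → ZMod 2) := by
    rw [Nat.card_eq_fintype_card (α := Fin 5 → ZMod 2)]
    exact octadRes_ker_card.trans (by simp)
  obtain ⟨b, hb⟩ := ((Nat.bijective_iff_injective_and_card f).2
    ⟨hf, le_antisymm (Nat.card_le_card_of_injective f hf) hle⟩).2 ⟨⟨c, hc⟩, hker ⟨c, hc⟩ h⟩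
  exact ⟨b, congrArg (fun x : octadRes.ker => x.1.1) hb⟩

/-- The pointwise stabiliser of the axes on the base octad. -/
def octFix : Subgroup Co0 where
  carrier := {g | ∀ i, baseOctad i ≠ 0 → g • axisVec i = axisVec i}
  one_mem' i _ := one_smul Co0 _
  mul_mem' {a b} ha hb i hi := by rw [mul_smul, hb i hi, ha i hi]
  inv_mem' {a} ha i hi := inv_smul_eq_iff.2 (ha i hi).symm

/-- The elements of `octFix` in coordinates. -/
noncomputable def fixElt (x : (Fin 5 → ZMod 2) × Fin 16) : Co0 :=
  monomial (⟨outCombo x.1, outCombo_mem x.1⟩, transM x.2)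

theorem fixElt_mem (x : (Fin 5 → ZMod 2) × Fin 16) : fixElt x ∈ octFix := fun i hi => by
  rw [fixElt, monomial_axis]
  rw [show (transM x.2).1 i = i from (trans_facts x.2).2 i hi, if_pos (outCombo_facts.1 x.1 i hi)]

theorem fixElt_surjective {g : Co0} (hg : g ∈ octFix) : ∃ x, fixElt x = g := by
  have hfr : g ∈ frameStab := by
    rw [mem_frameStab, hg none formHalf_ok.2.2.2.2.1]
    exact Cg.refl _
  obtain ⟨⟨c, τ⟩, rfl⟩ := frame_decomp hfr
  have key : ∀ i, baseOctad i ≠ 0 → τ.1 i = i ∧ c.1 i = 0 := by
    intro i hi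
    have h := hg i hi
    rw [monomial_axis] at h
    have h1 := congrFun (congrArg Subtype.val h) i
    by_cases hτ : τ.1 i = i
    · refine ⟨hτ, ?_⟩
      simp only [hτ] at h1
      by_contra hc
      rw [if_neg hc] at h1
      simp [axisVec, single] at h1
    · exfalso
      split_ifs at h1 <;> simp [axisVec, single, Ne.symm hτ] at h1
  obtain ⟨n, hn⟩ := transM_surjective τ fun i hi => (key i hi).1
  obtain ⟨b, hb⟩ := outCombo_surjective c.2 fun i hi => (key i hi).2
  exact ⟨(b, n), congrArg monomial (Prod.ext (Subtype.ext hb) hn)⟩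

theorem fixElt_injective : Function.Injective fixElt := fun x y h => by
  have h2 := monomial_injective h
  refine Prod.ext (funext fun k => ?_)
    (trans_cert.1 _ _ fun p => congrArg (fun z : golayCode × M24 => z.2.1 p) h2)
  rw [← outCombo_facts.2.1 x.1 k, ← outCombo_facts.2.1 y.1 k,
    show outCombo x.1 = outCombo y.1 from congrArg (fun z : golayCode × M24 => z.1.1) h2]

theorem card_octFix : Nat.card octFix = 512 := by
  rw [← Nat.card_eq_of_bijective (fun x => (⟨fixElt x, fixElt_mem x⟩ : octFix))
    ⟨fun x y h => fixElt_injective (congrArg Subtype.val h),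
      fun g => (fixElt_surjective g.2).imp fun x hx => Subtype.ext hx⟩]
  simp [Nat.card_eq_fintype_card]

theorem signs_congr {c d : GolayPt → ZMod 2} (hc : c ∈ golayCode) (hd : d ∈ golayCode) (h : c = d) :
    signs c hc = signs d hd := by subst h; rfl

theorem monomial_comm_eps {c : golayCode} {τ : M24} (h : ∀ i, baseOctad (τ.1.symm i) = baseOctad i) :
    monomial (c, τ) * epsOct = epsOct * monomial (c, τ) := by
  have hp : permHom τ * epsOct = epsOct * permHom τ := by
    have h1 := perm_conj_signs τ baseOctad baseOctad_mem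
    rw [signs_congr _ baseOctad_mem (funext h), mul_inv_eq_iff_eq_mul] at h1
    exact h1
  rw [monomial, mul_assoc, hp, ← mul_assoc, signs_comm, mul_assoc]

theorem octFix_le : octFix ≤ octCent := fun g hg => by
  obtain ⟨x, rfl⟩ := fixElt_surjective hg
  refine Subgroup.mem_centralizer_singleton_iff.2 (monomial_comm_eps fun i => ?_)
  by_cases hi : baseOctad i = 0
  · rw [hi]
    by_contra h
    have h1 := (trans_facts x.2).2 _ h
    have h1' : (transM x.2).1 ((transM x.2).1.symm i) = (transM x.2).1.symm i := h1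
    rw [Equiv.apply_symm_apply] at h1'
    rw [← h1'] at h
    exact h hi
  · rw [show (transM x.2).1.symm i = i from (Equiv.symm_apply_eq _).2 ((trans_facts x.2).2 i hi).symm]

theorem outWord_octFix : signs outWord outWord_mem ∈ octFix := fun i hi => by
  refine Subtype.ext (funext fun j => ?_)
  rw [signs_apply]
  by_cases hj : j = i
  · subst hj; rw [if_pos (by rw [outWord_apply, if_neg hi])]
  · simp [axisVec, single, hj]

theorem fixElt_sq (x : (Fin 5 → ZMod 2) × Fin 16) :
    fixElt x * fixElt x = 1 ∨ fixElt x * fixElt x = signs outWord outWord_mem := by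
  rw [fixElt, monomial_mul]
  simp only [transM_sq]
  rw [monomial, map_one, mul_one]
  rcases trans_cert.2.1 x.2 x.1 with h | h
  · left
    rw [signs_congr _ (Submodule.zero_mem _) (funext fun i => ?_), signs_zero]
    exact h i
  · exact Or.inr (signs_congr _ outWord_mem (funext h))

theorem outWord_ne : signs outWord outWord_mem ≠ 1 := fun h => by
  have h1 := congrArg (fun g : Co0 => ((g • axisVec outPt : leechLattice) : GolayPt → ℤ) outPt) h
  simp [signs_apply, axisVec, single, formHalf_ok.2.2.2.2.2.2] at h1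

theorem outWord_central {g : Co0} (hg : g ∈ octFix) :
    signs outWord outWord_mem * g = g * signs outWord outWord_mem := by
  have h : signs outWord outWord_mem = epsOct * negOne := by
    rw [epsOct, negOne, signs_mul]; rfl
  have hc := Subgroup.mem_centralizer_singleton_iff.1 (octFix_le hg)
  have hn := Subgroup.mem_center_iff.1 negOne_central g
  rw [h, ← mul_assoc, hc, mul_assoc, ← hn, mul_assoc]

theorem fix_central {x : (Fin 5 → ZMod 2) × Fin 16}
    (h : ∀ g ∈ octFix, g * fixElt x = fixElt x * g) :
    fixElt x = 1 ∨ fixElt x = signs outWord outWord_mem := by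
  have hn : ∀ p, tableFun (transTable x.2) p = p := by
    refine trans_cert.2.2.2.1 x.2 fun k i => ?_
    have h1 := h (monomial (⟨outCheck k, outCheck_mem k⟩, 1)) fun j hj => by
      rw [monomial_axis, if_pos]
      · rfl
      · show outCheck k j = 0
        rw [show outCheck k = outCombo (Pi.single k 1) by
          funext p; simp [outCombo, Pi.single_apply]]
        exact outCombo_facts.1 _ j hj
    rw [fixElt, monomial_mul, monomial_mul] at h1
    have h2 := congrFun (congrArg (fun z : golayCode × M24 => z.1.1) (monomial_injective h1)) i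
    change outCheck k i + outCombo x.1 i = outCombo x.1 i + outCheck k ((transM x.2).1.symm i) at h2
    rw [add_comm] at h2
    exact (add_left_cancel h2).symm
  have hb := trans_cert.2.2.1 x.1 fun n i => by
    have h1 := h (fixElt (0, n)) (fixElt_mem _)
    rw [fixElt, fixElt, monomial_mul, monomial_mul] at h1
    have h2 := congrFun (congrArg (fun z : golayCode × M24 => z.1.1) (monomial_injective h1)) i
    change outCombo 0 i + outCombo x.1 (tableFun (transTable n) i) =
      outCombo x.1 i + outCombo 0 (tableFun (transTable x.2) i) at h2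
    rw [outCombo_facts.2.2.1] at h2
    simpa using h2
  have hτ : transM x.2 = 1 := Subtype.ext (Equiv.ext hn)
  rcases hb with e | e
  · left
    rw [fixElt, monomial, hτ, map_one, mul_one,
      signs_congr _ (Submodule.zero_mem _) (show outCombo x.1 = 0 by rw [e, outCombo_facts.2.2.1]),
      signs_zero]
  · right
    rw [fixElt, monomial, hτ, map_one, mul_one]
    exact signs_congr _ outWord_mem
      (show outCombo x.1 = outWord by rw [e]; exact outCombo_facts.2.2.2)

set_option maxHeartbeats 1000000 in
theorem octFix_isExtraspecial : IsExtraspecial 2 octFix := by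
  classical
  haveI : Finite Co0 := finite_co0
  haveI : Fact (Nat.Prime 2) := ⟨Nat.prime_two⟩
  have hp : IsPGroup 2 octFix := IsPGroup.of_card (n := 9) (by rw [card_octFix]; norm_num)
  set w : octFix := ⟨signs outWord outWord_mem, outWord_octFix⟩ with hw
  have hwc : w ∈ Subgroup.center octFix :=
    Subgroup.mem_center_iff.2 fun g => Subtype.ext (outWord_central g.2).symm
  have hcen : ∀ z, z ∈ Subgroup.center octFix ↔ z = 1 ∨ z = w := by
    refine fun z => ⟨fun hz => ?_, ?_⟩
    · obtain ⟨x, hx⟩ := fixElt_surjective z.2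
      rcases fix_central (x := x) (fun g hg => by
        rw [hx]; exact congrArg Subtype.val (Subgroup.mem_center_iff.1 hz ⟨g, hg⟩)) with h | h
      · exact Or.inl (Subtype.ext (hx.symm.trans h))
      · exact Or.inr (Subtype.ext (hx.symm.trans h))
    · rintro (rfl | rfl)
      · exact one_mem _
      · exact hwc
  have hsq : ∀ a : octFix, a * a ∈ Subgroup.center octFix := fun a => by
    obtain ⟨x, hx⟩ := fixElt_surjective a.2
    refine (hcen _).2 ?_
    rcases fixElt_sq x with h | h
    · exact Or.inl (Subtype.ext (by rw [Subgroup.coe_mul, ← hx, h]; rfl))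
    · exact Or.inr (Subtype.ext (by rw [Subgroup.coe_mul, ← hx, h]))
  have hfr : frattini octFix ≤ Subgroup.center octFix := by
    rw [CfsgLib.QuadMap.frattini_eq_squares hp]
    exact (Subgroup.closure_le _).2 (by rintro _ ⟨a, rfl⟩; exact hsq a)
  have hcm : commutator octFix ≤ frattini octFix := CfsgLib.PGroup.commutator_le_frattini hp
  have hge : Subgroup.center octFix ≤ commutator octFix := by
    obtain ⟨n, k, i, hi⟩ := trans_cert.2.2.2.2
    set a : octFix := ⟨fixElt (Pi.single k 1, 0), fixElt_mem _⟩
    set b : octFix := ⟨fixElt (0, n), fixElt_mem _⟩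
    have hab : a * b ≠ b * a := fun h => by
      have h1 := congrArg Subtype.val h
      simp only [Subgroup.coe_mul, a, b] at h1
      rw [fixElt, fixElt, monomial_mul, monomial_mul] at h1
      have h2 := congrFun (congrArg (fun z : golayCode × M24 => z.1.1) (monomial_injective h1)) i
      change outCombo (Pi.single k 1) i + outCombo 0 (tableFun (transTable 0) i) =
        outCombo 0 i + outCombo (Pi.single k 1) (tableFun (transTable n) i) at h2
      rw [show outCombo (Pi.single k 1) = outCheck k by
        funext p; simp [outCombo, Pi.single_apply], outCombo_facts.2.2.1] at h2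
      simp at h2
      exact hi h2.symm
    intro z hz
    rcases (hcen z).1 hz with rfl | rfl
    · exact one_mem _
    · have hm : ⁅a, b⁆ ∈ commutator octFix :=
        Subgroup.commutator_mem_commutator (Subgroup.mem_top a) (Subgroup.mem_top b)
      rcases (hcen _).1 (hfr (hcm hm)) with h | h
      · exact absurd (commutatorElement_eq_one_iff_mul_comm.1 h) hab
      · rwa [h] at hm
  refine ⟨⟨hp, le_antisymm hfr (hge.trans hcm), le_antisymm (hcm.trans hfr) hge⟩, ?_⟩
  rw [Nat.card_eq_two_iff' (⟨1, one_mem _⟩ : Subgroup.center octFix)]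
  refine ⟨⟨w, hwc⟩, fun e => outWord_ne (congrArg (fun z : Subgroup.center octFix => z.1.1) e),
    fun z hz => ?_⟩
  rcases (hcen z.1).1 z.2 with h | h
  · exact absurd (Subtype.ext h) hz
  · exact Subtype.ext h

/-! ### The order of the centraliser and the image -/

noncomputable instance octVecAction : MulAction octCent OctSpace where
  smul g v := octMat g *ᵥ v
  one_smul v := by
    show octMat 1 *ᵥ v = v
    rw [show octMat 1 = 1 from map_one octMatHom, Matrix.one_mulVec]
  mul_smul g h v := by
    show octMat (g * h) *ᵥ v = octMat g *ᵥ (octMat h *ᵥ v)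
    rw [Matrix.mulVec_mulVec, show octMat (g * h) = octMat g * octMat h from map_mul octMatHom g h]

theorem singular_count : (Finset.univ.filter fun u : OctSpace => octForm u = 0 ∧ u ≠ 0).card = 135 := by
  decide +kernel

theorem decVec_one : octForm (decVec 1) = 0 ∧ decVec 1 ≠ 0 := by decide +kernel

theorem coHom_octAxis : coHom octAxis = decVec 1 := coFun_axis

theorem orbit_octAxis : (MulAction.orbit octCent (decVec 1)).ncard = 135 := by
  have h : MulAction.orbit octCent (decVec 1) =
      (↑(Finset.univ.filter fun u : OctSpace => octForm u = 0 ∧ u ≠ 0) : Set OctSpace) := by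
    ext u
    simp only [Finset.coe_filter, Finset.mem_univ, true_and]
    constructor
    · rintro ⟨g, rfl⟩
      show octForm (octMat g *ᵥ decVec 1) = 0 ∧ octMat g *ᵥ decVec 1 ≠ 0
      refine ⟨(octMat_isometry g _).trans decVec_one.1, fun e => decVec_one.2 ?_⟩
      have h1 := congrArg (fun x => octMat g⁻¹ *ᵥ x) e
      simp only [Matrix.mulVec_mulVec, Matrix.mulVec_zero,
        show octMat g⁻¹ * octMat g = 1 by
          rw [show octMat g⁻¹ * octMat g = octMat (g⁻¹ * g) from (map_mul octMatHom _ _).symm,
            inv_mul_cancel]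
          exact map_one octMatHom, Matrix.one_mulVec] at h1
      exact h1
    · rintro ⟨hq, h0⟩
      obtain ⟨g, hg⟩ := singular_transitive hq h0
      refine ⟨g, ?_⟩
      show octMat g *ᵥ decVec 1 = u
      rw [← coHom_octAxis, octMat_mulVec, hg]
  rw [h, Set.ncard_coe_finset, singular_count]

theorem stab_octAxis :
    MulAction.stabilizer octCent (decVec 1) = frameStab.subgroupOf octCent := by
  ext g
  rw [MulAction.mem_stabilizer_iff, Subgroup.mem_subgroupOf, mem_frameStab]
  show octMat g *ᵥ decVec 1 = decVec 1 ↔ _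
  rw [← coHom_octAxis, octMat_mulVec]
  exact co_eq_iff

theorem card_frame_octCent : Nat.card (frameStab.subgroupOf octCent) = 4096 * 322560 := by
  classical
  haveI : Finite Co0 := finite_co0
  set o := support₂ baseOctad with ho
  have hoct : o ∈ octads := ⟨⟨baseOctad, baseOctad_mem, rfl⟩, card_twoWord 0 1 (by decide)⟩
  have hfix : ∀ τ : M24, τ • o = o ↔ ∀ i, baseOctad (τ.1.symm i) = baseOctad i := by
    intro τ
    have hz : ∀ a b : ZMod 2, (a ≠ 0 ↔ b ≠ 0) → a = b := by decide
    constructor
    · intro h i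
      refine hz _ _ ?_
      rw [← mem_support₂_iff, ← mem_support₂_iff, ← ho]
      conv_rhs => rw [← h, ← Finset.inv_smul_mem_iff]
      rfl
    · intro h
      ext i
      rw [← Finset.inv_smul_mem_iff, ho, mem_support₂_iff, mem_support₂_iff]
      show baseOctad (τ.1.symm i) ≠ 0 ↔ _
      rw [h i]
  set H2 := (MulAction.stabilizer M24 o).comap framePart
  have hH2 : H2.index = 759 := by
    rw [Subgroup.index_comap_of_surjective _ (fun σ =>
      ⟨⟨permHom σ, permHom_mem_frameStab σ⟩, framePart_permHom σ⟩), MulAction.index_stabilizer,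
      ← CfsgLib.Golay.ncard_octads]
    congr 1
    ext b
    constructor
    · rintro ⟨σ, rfl⟩
      exact CfsgLib.Golay.smul_mem_octads σ.2 hoct
    · intro hb
      obtain ⟨σ, hσ, h⟩ := CfsgLib.Mathieu.exists_map_octad hoct hb
      exact ⟨⟨σ, hσ⟩, h⟩
  have hmem : ∀ f : frameStab, f ∈ H2 ↔ f ∈ octCent.subgroupOf frameStab := by
    rintro ⟨f, hf⟩
    obtain ⟨⟨c, τ⟩, rfl⟩ := frame_decomp hf
    rw [Subgroup.mem_comap, framePart_monomial, Subgroup.mem_subgroupOf, MulAction.mem_stabilizer_iff,
      hfix, Subgroup.mem_centralizer_singleton_iff]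
    refine ⟨monomial_comm_eps, fun h => ?_⟩
    have he : epsOct = monomial (⟨baseOctad, baseOctad_mem⟩, 1) := by
      rw [monomial, map_one, mul_one]; rfl
    rw [he, monomial_mul, monomial_mul] at h
    intro i
    have h2 := congrFun (congrArg (fun z : golayCode × M24 => z.1.1) (monomial_injective h)) i
    change c.1 i + baseOctad (τ.1.symm i) = baseOctad i + c.1 i at h2
    rw [add_comm (baseOctad i)] at h2
    exact add_left_cancel h2
  have h := Subgroup.card_mul_index H2
  rw [hH2, card_frameStab, Subgroup.ext (H := H2) (K := octCent.subgroupOf frameStab) hmem] at h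
  have e : Nat.card (frameStab.subgroupOf octCent) = Nat.card (octCent.subgroupOf frameStab) :=
    Nat.card_congr
      { toFun := fun g => ⟨⟨g.1.1, g.2⟩, g.1.2⟩
        invFun := fun g => ⟨⟨g.1.1, g.2⟩, g.1.2⟩
        left_inv := fun g => rfl
        right_inv := fun g => rfl }
  rw [e]
  refine Nat.eq_of_mul_eq_mul_right (m := 759) (by norm_num) (h.trans ?_)
  norm_num

theorem card_octCent : Nat.card octCent = 178362777600 := by
  haveI : Finite Co0 := finite_co0
  have h := Subgroup.card_mul_index (MulAction.stabilizer octCent (decVec 1))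
  rw [MulAction.index_stabilizer, orbit_octAxis, stab_octAxis, card_frame_octCent] at h
  omega

theorem negOne_octCent : negOne ∈ octCent :=
  Subgroup.mem_centralizer_singleton_iff.2 (Subgroup.mem_center_iff.1 negOne_central _).symm

theorem axis_root : ∀ i, baseOctad i ≠ 0 → axisVec i ∈ octLattice := fun i hi j hj => by
  show single i 8 j = 0
  rw [single, if_neg]
  intro e
  exact hi (e ▸ hj)

/-- The roots `4 (e∞ ± e)`. -/
noncomputable def octRoot (k : Fin 8) (s : Bool) (hk : k ≠ 0) : octLattice :=
  ⟨fourPair none (octPts k) 1 (if s then 1 else -1) (by cases s <;> norm_num), fun i hi => by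
    rw [fourPair_apply]
    have h0 : i ≠ none := fun e => formHalf_ok.2.2.2.2.1 (e ▸ hi)
    have hp : i ≠ octPts k := fun e => octPts_ok.1 k (e ▸ hi)
    simp [single, h0, hp]⟩

theorem octRoot_facts (k : Fin 8) (s : Bool) (hk : k ≠ 0) :
    nrm (octRoot k s hk : leechLattice) = 32 := by
  have hne : octPts k ≠ none := fun e => hk (octPts_ok.2.2 k 0 e)
  show sqNorm (fun i => 4 * (single none 1 i + single (octPts k) (if s then 1 else -1) i)) = 32
  have he : ∀ i, (4 * (single none 1 i + single (octPts k) (if s then 1 else -1) i)) ^ 2 =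
      16 * single none 1 i + 16 * single (octPts k) 1 i := fun i => by
    simp only [single]
    rcases eq_or_ne i none with rfl | h
    · simp [hne.symm]
    · cases s <;> simp [h] <;> split_ifs <;> norm_num
  rw [sqNorm, Finset.sum_congr rfl fun i _ => he i, Finset.sum_add_distrib, ← Finset.mul_sum,
    ← Finset.mul_sum, sum_single, sum_single]
  norm_num

theorem ker_octRep_cases {g : octCent} (h : octRep g = 1) :
    (g : Co0) ∈ octFix ∨ negOne * (g : Co0) ∈ octFix := by
  have hM : octMat g = 1 :=
    congrArg (fun x : Cfsg.isometryGroup (ZMod 2) octForm =>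
      (((x : GL (Fin 4 ⊕ Fin 4) (ZMod 2))) : Matrix (Fin 4 ⊕ Fin 4) (Fin 4 ⊕ Fin 4) (ZMod 2))) h
  have hcg : ∀ x : octLattice, Cg ((g : Co0) • (x : leechLattice)) x := fun x => by
    refine (co_eq_iff (x := octAct g x) (y := x)).1 ?_
    rw [← octMat_mulVec, hM, Matrix.one_mulVec]
  have hsign : ∀ k s hk, (g : Co0) • (octRoot k s hk : leechLattice) = octRoot k s hk ∨
      (g : Co0) • (octRoot k s hk : leechLattice) = -(octRoot k s hk : leechLattice) := by
    intro k s hk
    have hn := octRoot_facts k s hk
    rcases cg_short (hcg (octRoot k s hk)) (by rw [co0_sqNorm]; exact hn.le.trans (by norm_num))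
      (hn.le.trans (by norm_num)) with e | e | e
    · exact Or.inl e
    · exact Or.inr e
    · rw [co0_sqNorm] at e; exact absurd (hn.symm.trans e.1) (by norm_num)
  -- all the signs agree
  have hip : ∀ (k l : Fin 8) (s t : Bool) (hk : k ≠ 0) (hl : l ≠ 0), k ≠ l →
      ip (octRoot k s hk : leechLattice) (octRoot l t hl : leechLattice) = 16 := by
    intro k l s t hk hl hkl
    have h1 : none ≠ octPts k := fun e => hk (octPts_ok.2.2 k 0 e.symm)
    have h2 : none ≠ octPts l := fun e => hl (octPts_ok.2.2 l 0 e.symm)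
    have h3 : octPts k ≠ octPts l := fun e => hkl (octPts_ok.2.2 k l e)
    show ip (fourPair none (octPts k) 1 (if s then 1 else -1) (by cases s <;> norm_num))
      (fourPair none (octPts l) 1 (if t then 1 else -1) (by cases t <;> norm_num)) = 16
    rw [ip_fourPair, fourPair_apply, fourPair_apply]
    simp [single, h1, h2, h1.symm, h3]
  have hag : ∀ (k l : Fin 8) (s t : Bool) (hk : k ≠ 0) (hl : l ≠ 0), k ≠ l →
      (g : Co0) • (octRoot k s hk : leechLattice) = octRoot k s hk →
      (g : Co0) • (octRoot l t hl : leechLattice) = octRoot l t hl := by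
    intro k l s t hk hl hkl hfix
    rcases hsign l t hl with e | e
    · exact e
    · exfalso
      have h1 := ip_smul (g : Co0) (octRoot k s hk : leechLattice) (octRoot l t hl : leechLattice)
      rw [hfix, e, ip_neg_right, hip k l s t hk hl hkl] at h1
      omega
  have haxis : ∀ g' : Co0, (∀ k s hk, g' • (octRoot k s hk : leechLattice) = octRoot k s hk) →
      g' ∈ octFix := by
    intro g' hf
    have h0 : g' • axisVec none = axisVec none := by
      have e : axisVec none = (octRoot 1 true (by decide) : leechLattice) + octRoot 1 false (by decide) :=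
        Subtype.ext (funext fun i => by
          show single none 8 i = 4 * (single none 1 i + single (octPts 1) 1 i) +
            4 * (single none 1 i + single (octPts 1) (-1) i)
          simp only [single]; split_ifs <;> norm_num)
      rw [e, co0_map_add, hf, hf]
    intro i hi
    obtain ⟨k, rfl⟩ := octPts_ok.2.1 i hi
    by_cases hk : k = 0
    · subst hk; exact h0
    · have e : axisVec (octPts k) =
          (octRoot k true hk : leechLattice) + octRoot k true hk - axisVec none :=
        Subtype.ext (funext fun i => by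
          rw [AddSubgroupClass.coe_sub, AddMemClass.coe_add, Pi.sub_apply, Pi.add_apply]
          simp only [octRoot, axisVec, fourPair_apply, ↓reduceIte, single]
          split_ifs <;> norm_num)
      rw [e, co0_map_sub, co0_map_add, hf, h0]
  rcases hsign 1 true (by decide) with e | e
  · left
    refine haxis _ fun k s hk => ?_
    rcases eq_or_ne k 1 with rfl | hk1
    · exact hag 2 1 true s (by decide) hk (by decide) (hag 1 2 true true _ (by decide) (by decide) e)
    · exact hag 1 k true s _ hk hk1.symm e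
  · right
    refine haxis _ fun k s hk => ?_
    have hneg : ∀ k s hk, (g : Co0) • (octRoot k s hk : leechLattice) = -(octRoot k s hk : leechLattice) →
        (negOne * g) • (octRoot k s hk : leechLattice) = octRoot k s hk := fun k s hk h' => by
      rw [mul_smul, h', negOne_smul, neg_neg]
    refine hneg k s hk ?_
    rcases hsign k s hk with e' | e'
    · exfalso
      rcases eq_or_ne k 1 with rfl | hk1
      · have h2 := hag 2 1 true true (by decide) (by decide) (by decide)
          (hag 1 2 s true hk (by decide) (by decide) e')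
        rw [e] at h2
        have hn := octRoot_facts 1 true (by decide)
        have h3 := congrArg (fun v => ip v (octRoot 1 true (by decide) : leechLattice)) h2
        simp only [ip_comm (-_)] at h3
        rw [ip_neg_right, ip_self] at h3
        omega
      · have h2 := hag k 1 s true hk (by decide) hk1 e'
        rw [e] at h2
        have hn := octRoot_facts 1 true (by decide)
        have h3 := congrArg (fun v => ip v (octRoot 1 true (by decide) : leechLattice)) h2
        simp only [ip_comm (-_)] at h3
        rw [ip_neg_right, ip_self] at h3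
        omega
    · exact e'

theorem octRep_eq_one {g : octCent}
    (h : ∀ x : octLattice, Cg ((g : Co0) • (x : leechLattice)) x) : octRep g = 1 := by
  refine Subtype.ext (Units.ext (Matrix.ext_of_mulVec_single fun j => ?_))
  show octMat g *ᵥ Pi.single j 1 = (1 : Matrix (Fin 4 ⊕ Fin 4) (Fin 4 ⊕ Fin 4) (ZMod 2)) *ᵥ Pi.single j 1
  rw [octMat_apply, Matrix.one_mulVec]
  exact (coHom_cg (h _)).trans (coHom_octSec _)

theorem octFix_ker {g : Co0} (hg : g ∈ octFix) : octRep ⟨g, octFix_le hg⟩ = 1 := by
  obtain ⟨x, rfl⟩ := fixElt_surjective hg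
  refine octRep_eq_one fun v => ?_
  rw [show (fixElt x) • (v : leechLattice) = v from Subtype.ext (funext fun i => ?_)]
  · exact Cg.refl _
  rw [fixElt, monomial_apply]
  rcases eq_or_ne (baseOctad i) 0 with hi | hi
  · have hs : baseOctad ((transM x.2).1.symm i) = 0 := by
      by_contra h
      have h1 := (trans_facts x.2).2 _ h
      have h1' : (transM x.2).1 ((transM x.2).1.symm i) = (transM x.2).1.symm i := h1
      rw [Equiv.apply_symm_apply] at h1'
      rw [← h1'] at h
      exact h hi
    rw [v.2 i hi, v.2 _ hs]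
    simp
  · rw [show (transM x.2).1.symm i = i from (Equiv.symm_apply_eq _).2 ((trans_facts x.2).2 i hi).symm,
      if_pos (outCombo_facts.1 x.1 i hi)]

theorem negOne_ker : octRep ⟨negOne, negOne_octCent⟩ = 1 :=
  octRep_eq_one fun x => by rw [negOne_smul]; exact cg_neg _

theorem negOne_not_octFix : negOne ∉ octFix := fun h => by
  have h1 := congrFun (congrArg Subtype.val (h none formHalf_ok.2.2.2.2.1)) none
  simp [negOne, signs_apply, axisVec, single] at h1

theorem negOne_mul_self : negOne * negOne = 1 := by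
  rw [negOne, signs_mul, signs_congr _ (Submodule.zero_mem _)
    (show (1 : GolayPt → ZMod 2) + 1 = 0 from funext fun i => CharTwo.add_self_eq_zero (1 : ZMod 2)), signs_zero]

theorem card_ker_octRep : Nat.card octRep.ker = 1024 := by
  let f : Bool × octFix → octRep.ker := fun p =>
    if p.1 then ⟨⟨negOne, negOne_octCent⟩ * ⟨p.2.1, octFix_le p.2.2⟩, by
        rw [MonoidHom.mem_ker, map_mul, negOne_ker, octFix_ker p.2.2, one_mul]⟩
    else ⟨⟨p.2.1, octFix_le p.2.2⟩, octFix_ker p.2.2⟩
  have hb : Function.Bijective f := by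
    constructor
    · rintro ⟨a, x⟩ ⟨b, y⟩ h
      have h' := congrArg (fun z : octRep.ker => (z.1 : Co0)) h
      cases a <;> cases b <;> simp only [f, Bool.false_eq_true, if_true, if_false,
        Subgroup.coe_mul] at h'
      · exact Prod.ext rfl (Subtype.ext h')
      · refine absurd ?_ negOne_not_octFix
        rw [show negOne = x.1 * (y.1)⁻¹ by rw [h', mul_inv_cancel_right]]
        exact mul_mem x.2 (inv_mem y.2)
      · refine absurd ?_ negOne_not_octFix
        rw [show negOne = y.1 * (x.1)⁻¹ by rw [← h', mul_inv_cancel_right]]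
        exact mul_mem y.2 (inv_mem x.2)
      · exact Prod.ext rfl (Subtype.ext (mul_left_cancel h'))
    · rintro ⟨g, hg⟩
      rcases ker_octRep_cases hg with h | h
      · exact ⟨(false, ⟨_, h⟩), rfl⟩
      · refine ⟨(true, ⟨_, h⟩), Subtype.ext (Subtype.ext ?_)⟩
        show negOne * (negOne * (g : Co0)) = g
        rw [← mul_assoc, negOne_mul_self, one_mul]
  rw [← Nat.card_eq_of_bijective f hb, Nat.card_prod, card_octFix]
  simp

theorem range_octRep : octRep.range = Cfsg.Omega (ZMod 2) octForm := by
  classical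
  haveI : Finite Co0 := finite_co0
  haveI : Fact (Nat.Prime 2) := ⟨Nat.prime_two⟩
  have h1 := Subgroup.card_mul_index octRep.ker
  rw [Subgroup.index_ker, card_ker_octRep, card_octCent] at h1
  have hO : Nat.card (Cfsg.isometryGroup (ZMod 2) octForm) = 348364800 := by
    rw [octForm, CfsgLib.Classical.Orth.card_isometryGroup_plus (F := ZMod 2) 3, ZMod.card]
    decide +kernel
  have h2 := Subgroup.card_mul_index octRep.range
  rw [hO] at h2
  have hidx : octRep.range.index = 2 := by
    have : Nat.card octRep.range = 174182400 := by omega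
    rw [this] at h2
    omega
  have hge : Cfsg.Omega (ZMod 2) octForm ≤ octRep.range := by
    rw [Cfsg.Omega, commutator_eq_closure, Subgroup.closure_le]
    rintro _ ⟨a, b, rfl⟩
    rw [SetLike.mem_coe, commutatorElement_def]
    simp only [Subgroup.mul_mem_iff_of_index_two hidx, inv_mem_iff]
    tauto
  have hidx' : (Cfsg.Omega (ZMod 2) octForm).index = 2 :=
    CfsgLib.Classical.Orth.index_omega_even (CfsgLib.Classical.Orth.isNondegQF_quadFormPlus 4)
      CharTwo.two_eq_zero (by simp) (by simp)
  refine (Subgroup.eq_of_le_of_card_ge hge ?_).symm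
  have h3 := Subgroup.card_mul_index (Cfsg.Omega (ZMod 2) octForm)
  rw [hidx', hO] at h3
  rw [hidx] at h2
  omega

theorem omega_isSimple : IsSimpleGroup (Cfsg.Omega (ZMod 2) octForm) := by
  haveI := Cfsg.Agent.S0296.result (F := ZMod 2) 4 le_rfl
  have hc : Subgroup.center (Cfsg.Omega (ZMod 2) octForm) = ⊥ :=
    Subgroup.card_eq_one.1 ((CfsgLib.Classical.Orth.card_center_omega
      (CfsgLib.Classical.Orth.isNondegQF_quadFormPlus 4) (by simp)).1 (Or.inr (by decide)))
  exact ((QuotientGroup.quotientMulEquivOfEq hc).trans QuotientGroup.quotientBot).symm.isSimpleGroup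

/-! ### The centraliser in `Co1` -/

/-- The involution. -/
noncomputable def octZ : Spor.Co1 := toCo1 epsOct

/-- Its centraliser. -/
noncomputable abbrev octC : Subgroup Spor.Co1 := Subgroup.centralizer ({octZ} : Set Spor.Co1)

/-- The map onto the centraliser. -/
noncomputable def toOctC : octCent →* octC :=
  (toCo1.comp octCent.subtype).codRestrict _ fun g => by
    rw [Subgroup.mem_centralizer_singleton_iff]
    show toCo1 (g : Co0) * toCo1 epsOct = toCo1 epsOct * toCo1 (g : Co0)
    rw [← map_mul, ← map_mul, Subgroup.mem_centralizer_singleton_iff.1 g.2]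

/-- The coordinates on the octad, rationally. -/
def octRat (v : leechLattice) : Fin 8 → ℚ := fun k => ((v : GolayPt → ℤ) (octPts k) : ℚ)

theorem not_flip {t : Co0} (h : t * epsOct * t⁻¹ = epsOct * negOne) : False := by
  classical
  let ι := {i : GolayPt // baseOctad i = 0}
  have hflip : ∀ i : ι, t • axisVec i.1 ∈ octLattice := by
    intro i
    rw [mem_octLattice_iff]
    have he : epsOct • axisVec i.1 = axisVec i.1 := Subtype.ext (funext fun k => by
      rw [epsOct, signs_apply]
      by_cases hk : k = i.1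
      · subst hk; rw [if_pos i.2]
      · simp [axisVec, single, hk])
    have h1 : (epsOct * negOne) • (t • axisVec i.1) = t • axisVec i.1 := by
      rw [← h, mul_smul, mul_smul, inv_smul_smul, he]
    rw [mul_smul, negOne_smul, co0_map_neg] at h1
    exact neg_eq_iff_eq_neg.1 h1
  have hdot : ∀ i j : ι, (∑ k, octRat (t • axisVec i.1) k * octRat (t • axisVec j.1) k) =
      if i = j then 64 else 0 := by
    intro i j
    have h1 := co0_dotInt t (axisVec i.1) (axisVec j.1)
    have hR : dotInt ((axisVec i.1 : leechLattice) : GolayPt → ℤ) (axisVec j.1 : leechLattice) =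
        if i = j then 64 else 0 := by
      show ∑ k, single i.1 8 k * single j.1 8 k = _
      rcases eq_or_ne i j with hij | hij
      · subst hij; simp [single]
      · simp [single, hij, Ne.symm (Subtype.coe_injective.ne hij)]
    rw [hR] at h1
    have h2 : dotInt ((t • axisVec i.1 : leechLattice) : GolayPt → ℤ) (t • axisVec j.1 : leechLattice) =
        ∑ k, ((t • axisVec i.1 : leechLattice) : GolayPt → ℤ) (octPts k) *
          ((t • axisVec j.1 : leechLattice) : GolayPt → ℤ) (octPts k) := by
      rw [dotInt, ← Finset.sum_image (s := Finset.univ) (g := octPts)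
        (f := fun p => ((t • axisVec i.1 : leechLattice) : GolayPt → ℤ) p *
          ((t • axisVec j.1 : leechLattice) : GolayPt → ℤ) p) (fun k _ l _ e => octPts_ok.2.2 k l e)]
      refine (Finset.sum_subset (Finset.subset_univ _) fun p _ hp => ?_).symm
      rw [hflip i p, zero_mul]
      by_contra hb
      obtain ⟨k, hk⟩ := octPts_ok.2.1 p hb
      exact hp (Finset.mem_image.2 ⟨k, Finset.mem_univ _, hk⟩)
    rw [h2] at h1
    have h3 := congrArg (fun z : ℤ => (z : ℚ)) h1
    push_cast at h3
    exact h3
  have hli : LinearIndependent ℚ (fun i : ι => octRat (t • axisVec i.1)) := by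
    rw [Fintype.linearIndependent_iff]
    intro c hc j
    have h1 := congrArg (fun f : Fin 8 → ℚ => ∑ k, f k * octRat (t • axisVec j.1) k) hc
    simp only [Finset.sum_apply, Pi.smul_apply, smul_eq_mul, Pi.zero_apply, zero_mul,
      Finset.sum_const_zero, Finset.sum_mul, mul_assoc] at h1
    rw [Finset.sum_comm] at h1
    simp only [← Finset.mul_sum, hdot, mul_ite, mul_zero] at h1
    rw [Finset.sum_eq_single j (fun x _ hx => if_neg hx) (by simp), if_pos rfl] at h1
    linarith
  have hc := hli.fintype_card_le_finrank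
  rw [Module.finrank_fintype_fun_eq_card, Fintype.card_fin] at hc
  have h16 : Fintype.card ι = 16 := by
    rw [Fintype.card_subtype]; decide +kernel
  omega

theorem toOctC_surjective : Function.Surjective toOctC := by
  rintro ⟨x, hx⟩
  obtain ⟨t, rfl⟩ := QuotientGroup.mk'_surjective _ x
  have h1 : toCo1 epsOct = toCo1 (t * epsOct * t⁻¹) := by
    rw [map_mul, map_mul, map_inv]
    exact eq_mul_inv_of_mul_eq (Subgroup.mem_centralizer_singleton_iff.1 hx).symm
  rcases toCo1_eq h1 with e | e
  · exact ⟨⟨t, Subgroup.mem_centralizer_singleton_iff.2 (mul_inv_eq_iff_eq_mul.1 e)⟩, rfl⟩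
  · exact (not_flip e).elim

theorem toOctC_ker_le : toOctC.ker ≤ octRep.ker := fun g hg => by
  rcases center_co0_cases ((QuotientGroup.eq_one_iff _).1 (congrArg Subtype.val hg)) with e | e
  · rw [show g = 1 from Subtype.ext e]; exact one_mem _
  · rw [show g = ⟨negOne, negOne_octCent⟩ from Subtype.ext e]; exact negOne_ker

/-- The extraspecial normal subgroup. -/
noncomputable def octQ : Subgroup octC := octRep.ker.map toOctC

instance octQ_normal : octQ.Normal :=
  Subgroup.Normal.map inferInstance _ toOctC_surjective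

theorem octQ_equiv : Nonempty (octFix ≃* octQ) := by
  let f : octFix →* octQ :=
    (toOctC.comp (Subgroup.inclusion octFix_le)).codRestrict _ fun g => ⟨_, octFix_ker g.2, rfl⟩
  refine ⟨MulEquiv.ofBijective f ⟨(injective_iff_map_eq_one f).2 fun g hg => ?_, ?_⟩⟩
  · rcases center_co0_cases ((QuotientGroup.eq_one_iff _).1
      (congrArg (fun z : octQ => (z.1 : Spor.Co1)) hg)) with e | e
    · exact Subtype.ext e
    · exact absurd (show negOne ∈ octFix from e ▸ g.2) negOne_not_octFix
  · rintro ⟨_, g, hg, rfl⟩
    rcases ker_octRep_cases hg with h | h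
    · exact ⟨⟨_, h⟩, rfl⟩
    · refine ⟨⟨_, h⟩, Subtype.ext (Subtype.ext ?_)⟩
      show toCo1 (negOne * (g : Co0)) = toCo1 (g : Co0)
      rw [map_mul, show toCo1 negOne = 1 from (QuotientGroup.eq_one_iff negOne).2 negOne_central,
        one_mul]

theorem isExtraspecial_congr {A B : Type*} [Group A] [Group B] [Finite A] (e : A ≃* B)
    (h : IsExtraspecial 2 A) : IsExtraspecial 2 B := by
  obtain ⟨⟨hp, hf, hc⟩, hcard⟩ := h
  haveI : Finite B := Finite.of_equiv _ e.toEquiv
  have hz : (Subgroup.center A).map e.toMonoidHom = Subgroup.center B := by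
    ext b
    simp only [Subgroup.mem_map, Subgroup.mem_center_iff]
    refine ⟨?_, fun hb => ⟨e.symm b, fun a => e.injective ?_, e.apply_symm_apply b⟩⟩
    · rintro ⟨a, ha, rfl⟩ b
      obtain ⟨a', rfl⟩ := e.surjective b
      exact (map_mul e _ _).symm.trans ((congrArg e (ha a')).trans (map_mul e _ _))
    · rw [map_mul, map_mul, e.apply_symm_apply]; exact hb _
  have hpB := hp.of_equiv e
  refine ⟨⟨hpB, ?_, ?_⟩, ?_⟩
  · rw [CfsgLib.QuadMap.frattini_eq_squares hpB, ← hz, ← hf,
      CfsgLib.QuadMap.frattini_eq_squares hp, CfsgLib.QuadMap.squares, CfsgLib.QuadMap.squares,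
      MonoidHom.map_closure]
    congr 1
    ext b
    constructor
    · rintro ⟨x, rfl⟩
      exact ⟨_, ⟨e.symm x, rfl⟩, by simp⟩
    · rintro ⟨_, ⟨x, rfl⟩, rfl⟩
      exact ⟨e x, by simp⟩
  · rw [← hz, ← hc, commutator_def, commutator_def, Subgroup.map_commutator,
      Subgroup.map_top_of_surjective _ e.surjective]
  · rw [← hz, Subgroup.card_map_of_injective (f := e.toMonoidHom) e.injective, hcard]

theorem octQ_isExtraspecial : IsExtraspecial 2 octQ := by
  haveI : Finite Co0 := finite_co0
  exact isExtraspecial_congr octQ_equiv.some octFix_isExtraspecial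

theorem card_octQ : Nat.card octQ = 2 ^ 9 := by
  rw [← Nat.card_congr octQ_equiv.some.toEquiv, card_octFix]; norm_num

theorem quotient_equiv : Nonempty (octC ⧸ octQ ≃* Cfsg.Omega (ZMod 2) octForm) := by
  let χ : octCent →* octC ⧸ octQ := (QuotientGroup.mk' octQ).comp toOctC
  have hker : χ.ker = octRep.ker := by
    rw [← MonoidHom.comap_ker, QuotientGroup.ker_mk', octQ,
      Subgroup.comap_map_eq_self toOctC_ker_le]
  have hsurj : Function.Surjective χ := (QuotientGroup.mk'_surjective _).comp toOctC_surjective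
  exact ⟨(QuotientGroup.quotientKerEquivOfSurjective χ hsurj).symm.trans
    ((QuotientGroup.quotientMulEquivOfEq hker).trans
      ((QuotientGroup.quotientKerEquivRange octRep).trans (MulEquiv.subgroupCongr range_octRep)))⟩

theorem spread_moves : ∃ n : Fin 5, ∃ k : Fin 5, (∀ i,
      outCheck k (tableFun (spreadTables n).1.2 i) + outCheck k i = outCheck k i → False) ∨
    ((∃ i, outCheck k (tableFun (spreadTables n).1.2 i) + outCheck k i ≠ 0) ∧
      ∃ i, outCheck k (tableFun (spreadTables n).1.2 i) + outCheck k i ≠ outWord i) := by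
  decide +kernel

theorem centralizer_octQ : Subgroup.centralizer (octQ : Set octC) ≤ octQ := by
  classical
  haveI : Finite Co0 := finite_co0
  haveI := omega_isSimple
  obtain ⟨e⟩ := quotient_equiv
  haveI : IsSimpleGroup (octC ⧸ octQ) := e.isSimpleGroup
  set N := Subgroup.centralizer (octQ : Set octC)
  haveI : N.Normal := Subgroup.normal_centralizer
  have hNm : (N.map (QuotientGroup.mk' octQ)).Normal :=
    Subgroup.Normal.map inferInstance _ (QuotientGroup.mk'_surjective _)
  rcases hNm.eq_bot_or_eq_top with h | h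
  · intro x hx
    exact (QuotientGroup.eq_one_iff x).1 (Subgroup.mem_bot.1 (h ▸ ⟨x, hx, rfl⟩))
  exfalso
  obtain ⟨n, k, hnk⟩ := spread_moves
  have hcomb : ∀ i, baseOctad i ≠ 0 → outCheck k i = 0 := fun i hi => by
    rw [show outCheck k = outCombo (Pi.single k 1) by funext p; simp [outCombo, Pi.single_apply]]
    exact outCombo_facts.1 _ i hi
  have hq : signs (outCheck k) (outCheck_mem k) ∈ octFix := fun i hi => by
    refine Subtype.ext (funext fun j => ?_)
    rw [signs_apply]
    by_cases hj : j = i
    · subst hj; rw [if_pos (hcomb j hi)]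
    · simp [axisVec, single, hj]
  have tmem : permHom (spreadPerm n) ∈ octCent :=
    Subgroup.mem_centralizer_singleton_iff.2 (spreadPerm_comm n)
  set T : octC := toOctC ⟨_, tmem⟩
  set q0 : octC := toOctC ⟨_, octFix_le hq⟩
  have hq0 : q0 ∈ octQ := ⟨_, octFix_ker hq, rfl⟩
  obtain ⟨m, hm, hmT⟩ : QuotientGroup.mk' octQ T ∈ N.map (QuotientGroup.mk' octQ) :=
    h ▸ Subgroup.mem_top _
  have hq1 : T * m⁻¹ ∈ octQ := by
    rw [← QuotientGroup.eq_one_iff]
    show QuotientGroup.mk' octQ (T * m⁻¹) = 1
    rw [map_mul, map_inv, hmT, mul_inv_cancel]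
  obtain ⟨q1, hq1', hq1e⟩ := hq1
  have hconj : T * q0 * T⁻¹ = toOctC q1 * q0 * (toOctC q1)⁻¹ := by
    have hmq : q0 * m = m * q0 := Subgroup.mem_centralizer_iff.1 hm q0 hq0
    rw [hq1e]
    calc T * q0 * T⁻¹ = T * m⁻¹ * (m * q0 * m⁻¹) * (T * m⁻¹)⁻¹ := by group
      _ = _ := by rw [← hmq, mul_inv_cancel_right]
  obtain ⟨r, hr, hrq⟩ : ∃ r ∈ octFix, toOctC q1 = toCo1 r := by
    rcases ker_octRep_cases hq1' with h' | h'
    · exact ⟨_, h', rfl⟩
    · refine ⟨_, h', ?_⟩
      rw [map_mul, show toCo1 negOne = 1 from (QuotientGroup.eq_one_iff negOne).2 negOne_central,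
        one_mul]
      rfl
  have h1 : toCo1 (permHom (spreadPerm n) * signs (outCheck k) (outCheck_mem k) *
        (permHom (spreadPerm n))⁻¹) =
      toCo1 (r * signs (outCheck k) (outCheck_mem k) * r⁻¹) := by
    have := congrArg (Subtype.val : octC → Spor.Co1) hconj
    rw [Subgroup.coe_mul, Subgroup.coe_mul, Subgroup.coe_inv, Subgroup.coe_mul, Subgroup.coe_mul,
      Subgroup.coe_inv, hrq] at this
    rw [map_mul, map_mul, map_inv, map_mul, map_mul, map_inv]
    exact this
  obtain ⟨x, rfl⟩ := fixElt_surjective hr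
  have hrc : fixElt x * signs (outCheck k) (outCheck_mem k) * (fixElt x)⁻¹ =
      signs (fun i => outCheck k ((transM x.2).1.symm i)) (M24_isCode (transM x.2).2 (outCheck_mem k)) := by
    rw [mul_inv_eq_iff_eq_mul]
    have e1 : signs (outCheck k) (outCheck_mem k) = monomial (⟨outCheck k, outCheck_mem k⟩, 1) := by
      rw [monomial, map_one, mul_one]
    have e2 : signs (fun i => outCheck k ((transM x.2).1.symm i))
        (M24_isCode (transM x.2).2 (outCheck_mem k)) =
        monomial (⟨_, M24_isCode (transM x.2).2 (outCheck_mem k)⟩, 1) := by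
      rw [monomial, map_one, mul_one]
    rw [e1, e2, fixElt, monomial_mul, monomial_mul, mul_one, one_mul]
    refine congrArg monomial (Prod.ext (Subtype.ext (funext fun i => ?_)) rfl)
    exact add_comm _ _
  rw [perm_conj_signs, hrc] at h1
  have hcases := toCo1_eq h1
  have hB : ∀ i, outCheck k ((transM x.2).1.symm i) + outCheck k i = 0 ∨
      outCheck k ((transM x.2).1.symm i) + outCheck k i = outWord i := by
    intro i
    have hc := trans_cert.2.1 x.2 (Pi.single k 1)
    rw [show outCombo (Pi.single k 1) = outCheck k by funext p; simp [outCombo, Pi.single_apply]] at hc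
    rcases hc with hc | hc
    · exact Or.inl ((add_comm _ _).trans (hc i))
    · exact Or.inr ((add_comm _ _).trans (hc i))
  have hval : ∀ (c d : GolayPt → ZMod 2) (hc : c ∈ golayCode) (hd : d ∈ golayCode),
      signs c hc = signs d hd → c = d := fun c d hc hd e => by
    have e1 : monomial (⟨c, hc⟩, 1) = monomial (⟨d, hd⟩, 1) := by
      rw [monomial, monomial]; exact congrArg (· * permHom 1) e
    exact congrArg (fun z : golayCode × M24 => z.1.1) (monomial_injective e1)
  have hex : ∃ j, baseOctad j ≠ 0 := ⟨none, formHalf_ok.2.2.2.2.1⟩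
  rcases hcases with e | e
  · have e' := hval _ _ _ _ e
    rcases hnk with hbad | ⟨⟨i, hi⟩, ⟨j, hj⟩⟩
    · obtain ⟨j, hj⟩ := hex
      refine hbad j ?_
      rw [show tableFun (spreadTables n).1.2 j = (spreadPerm n).1.symm j from rfl, hcomb j hj,
        hcomb _ (by rw [show baseOctad ((spreadPerm n).1.symm j) = baseOctad j from gen_support n j]; exact hj),
        add_zero]
    · have key : (∀ i, outCheck k (tableFun (spreadTables n).1.2 i) + outCheck k i = 0) ∨
          (∀ i, outCheck k (tableFun (spreadTables n).1.2 i) + outCheck k i = outWord i) := by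
        have hc := trans_cert.2.1 x.2 (Pi.single k 1)
        rw [show outCombo (Pi.single k 1) = outCheck k by funext p; simp [outCombo, Pi.single_apply]] at hc
        rcases hc with hc | hc
        · refine Or.inl fun i => ?_
          rw [add_comm, ← hc i]
          congr 1
          exact (congrFun e' i).symm
        · refine Or.inr fun i => ?_
          rw [add_comm, ← hc i]
          congr 1
          exact (congrFun e' i).symm
      rcases key with key | key
      · exact hi (key i)
      · exact hj (key j)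
  · -- a sign at the points of the octad
    obtain ⟨j, hj⟩ := hex
    rw [negOne, signs_mul] at e
    have e' := congrFun (hval _ _ _ _ e) j
    simp only [Pi.add_apply, Pi.one_apply] at e'
    rw [hcomb _ (by
        rw [show (transM x.2).1.symm j = j from (Equiv.symm_apply_eq _).2 ((trans_facts x.2).2 j hj).symm]
        exact hj),
      hcomb _ (by rw [show baseOctad ((spreadPerm n).1.symm j) = baseOctad j from gen_support n j]; exact hj),
      zero_add] at e'
    exact zero_ne_one e'

theorem octQ_gFitting : generalizedFittingSubgroup octC = octQ := by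
  classical
  haveI : Finite Co0 := finite_co0
  haveI : Fact (Nat.Prime 2) := ⟨Nat.prime_two⟩
  haveI := omega_isSimple
  obtain ⟨e⟩ := quotient_equiv
  haveI : IsSimpleGroup (octC ⧸ octQ) := e.isSimpleGroup
  have hQp : IsPGroup 2 octQ := octQ_isExtraspecial.1.1
  have hle : octQ ≤ pCore 2 octC := CfsgLib.LocalP.le_pCore inferInstance hQp
  haveI := Cfsg.pCore_normal 2 octC
  have hge : pCore 2 octC ≤ octQ := by
    rcases ((Cfsg.pCore_normal 2 octC).map (QuotientGroup.mk' octQ)
        (QuotientGroup.mk'_surjective _)).eq_bot_or_eq_top with h | h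
    · intro x hx
      exact (QuotientGroup.eq_one_iff x).1 (Subgroup.mem_bot.1 (h ▸ ⟨x, hx, rfl⟩))
    · exfalso
      have hp2 : IsPGroup 2 (octC ⧸ octQ) := by
        have := (CfsgLib.LocalP.isPGroup_pCore (G := octC) (p := 2)).map (QuotientGroup.mk' octQ)
        rw [h] at this
        exact this.of_equiv Subgroup.topEquiv
      obtain ⟨j, hj⟩ := (hp2.of_equiv e).exists_card_eq
      have h3 : 3 ∣ Nat.card (Cfsg.Omega (ZMod 2) octForm) := by
        have h1 := Subgroup.card_mul_index (Cfsg.Omega (ZMod 2) octForm)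
        have hO : Nat.card (Cfsg.isometryGroup (ZMod 2) octForm) = 348364800 := by
          rw [octForm, CfsgLib.Classical.Orth.card_isometryGroup_plus (F := ZMod 2) 3, ZMod.card]
          decide +kernel
        rw [CfsgLib.Classical.Orth.index_omega_even
          (CfsgLib.Classical.Orth.isNondegQF_quadFormPlus (F := ZMod 2) 4)
          CharTwo.two_eq_zero (by simp) (by simp), hO] at h1
        omega
      rw [hj] at h3
      exact absurd (Nat.Prime.dvd_of_dvd_pow (by norm_num : Nat.Prime 3) h3) (by norm_num)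
  have heq : pCore 2 octC = octQ := le_antisymm hge hle
  rw [← heq]
  exact CfsgLib.CharPClimb.generalizedFitting_eq_pCore (heq.symm ▸ centralizer_octQ)

theorem octZ_orderOf : orderOf octZ = 2 := by
  haveI : Fact (Nat.Prime 2) := ⟨Nat.prime_two⟩
  refine orderOf_eq_prime ?_ fun h => ?_
  · rw [octZ, ← map_pow, pow_two, epsOct, signs_mul, signs_congr _ (Submodule.zero_mem _)
      (show baseOctad + baseOctad = 0 from funext fun i => CharTwo.add_self_eq_zero _),
      signs_zero, map_one]
  · rcases center_co0_cases ((QuotientGroup.eq_one_iff _).1 h) with e | e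
    · have h1 := congrFun (congrArg Subtype.val (congrArg (· • axisVec none) e)) none
      simp [epsOct, signs_apply, axisVec, single, formHalf_ok.2.2.2.2.1] at h1
    · have h1 := congrFun (congrArg Subtype.val (congrArg (· • axisVec outPt) e)) outPt
      simp [epsOct, negOne, signs_apply, axisVec, single, formHalf_ok.2.2.2.1] at h1

theorem twoWord23_out : ∀ i, baseOctad i ≠ 0 → twoWord 2 3 i = 0 := by decide +kernel

theorem twoWord23_avoid : ∃ p, baseOctad p = 0 ∧ twoWord 2 3 p = 0 := by decide +kernel

theorem octZ_not_weakly_closed : ∃ g : Spor.Co1,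
    (∃ hq : g * octZ * g⁻¹ ∈ octC, (⟨g * octZ * g⁻¹, hq⟩ : octC) ∈ octQ) ∧
      g * octZ * g⁻¹ ≠ octZ := by
  have hw : twoWord 2 3 ∈ golayCode := by
    rw [twoWord_eq 2 3 (by decide) (by decide) (by decide)]
    exact add_mem (pairWord_mem 2 (by decide)) (pairWord_mem 3 (by decide))
  obtain ⟨σ, hσ, h⟩ := CfsgLib.Mathieu.exists_map_octad
    (o := support₂ baseOctad) (o' := support₂ (twoWord 2 3))
    ⟨⟨baseOctad, baseOctad_mem, rfl⟩, card_twoWord 0 1 (by decide)⟩
    ⟨⟨twoWord 2 3, hw, rfl⟩, card_twoWord 2 3 (by decide)⟩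
  have hfun : (fun i => baseOctad (σ.symm i)) = twoWord 2 3 := by
    funext i
    have hz : ∀ a b : ZMod 2, (a ≠ 0 ↔ b ≠ 0) → a = b := by decide
    refine hz _ _ ?_
    rw [← mem_support₂_iff, ← mem_support₂_iff, ← h, ← Finset.inv_smul_mem_iff]
    rfl
  set w := signs (twoWord 2 3) hw
  have hwF : w ∈ octFix := fun i hi => by
    refine Subtype.ext (funext fun j => ?_)
    rw [signs_apply]
    by_cases hj : j = i
    · subst hj; rw [if_pos (twoWord23_out j hi)]
    · simp [axisVec, single, hj]
  have hg : toCo1 (permHom ⟨σ, hσ⟩) * octZ * (toCo1 (permHom ⟨σ, hσ⟩))⁻¹ = toCo1 w := by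
    rw [octZ, ← map_inv, ← map_mul, ← map_mul, epsOct, perm_conj_signs]
    exact congrArg toCo1 (signs_congr _ hw hfun)
  refine ⟨toCo1 (permHom ⟨σ, hσ⟩), ⟨?_, ?_⟩, ?_⟩
  · rw [hg]
    exact (toOctC ⟨w, octFix_le hwF⟩).2
  · refine ⟨⟨w, octFix_le hwF⟩, octFix_ker hwF, Subtype.ext ?_⟩
    exact hg.symm
  · rw [hg, octZ]
    intro e
    rcases toCo1_eq e with r | r
    · have h1 := congrFun (congrArg Subtype.val (congrArg (· • axisVec none) r)) none
      simp [w, epsOct, signs_apply, axisVec, single, formHalf_ok.2.2.2.2.1,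
        twoWord23_out none formHalf_ok.2.2.2.2.1] at h1
    · obtain ⟨q, hb, hb'⟩ := twoWord23_avoid
      have h1 := congrArg (fun g : Co0 => ((g • axisVec q : leechLattice) : GolayPt → ℤ) q) r
      simp only [mul_smul, negOne_smul, co0_map_neg] at h1
      simp [w, epsOct, signs_apply, axisVec, single, hb, hb'] at h1

end CfsgLib.Leech
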